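/-
A small proof checker for Todd–Coxeter coset enumerations, designed to be evaluated by the kernel.

Names `0, 1, 2, …` stand for unknown points `ρ 0, ρ 1, …` of a set on which letters act by `act`; the name `0`
stands for the base point. A key `k = x * sz + h` (with `h < sz`, the letter `ep = sz - 1` acting trivially)
holds a record `E k = τ * 2 ^ b + y`, meaning the fact `act h (ρ x) = ρ y`; a key with `τ = 0` is absent and a
larger `τ` means an older fact. Every present key has a reason: it defines the name `y`, or it follows by walking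
around a word acting trivially, using older keys only, with exactly one gap.
-/
import Mathlib

set_option autoImplicit false

namespace Cfsg.Agent.Lib.TC

/-- Apply a word letter by letter (first letter first). -/
def actWord {X : Type*} (act : ℕ → X → X) : List ℕ → X → X
  | [], x => x
  | g :: w, x => actWord act w (act g x)

@[simp] theorem actWord_nil {X : Type*} (act : ℕ → X → X) (x : X) : actWord act [] x = x := rfl
@[simp] theorem actWord_cons {X : Type*} (act : ℕ → X → X) (g : ℕ) (w : List ℕ) (x : X) :
    actWord act (g :: w) x = actWord act w (act g x) := rfl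

theorem nat_beq_true {a b : ℕ} (h : Nat.beq a b = true) : a = b := Nat.eq_of_beq_eq_true h

theorem nat_blt_true {a b : ℕ} (h : Nat.blt a b = true) : a < b := by
  simpa [Nat.blt] using h

theorem brec_and {a c : Bool} (h : Bool.rec (motive := fun _ => Bool) false a c = true) :
    c = true ∧ a = true := by
  cases c
  · exact absurd h (by simp)
  · exact ⟨rfl, h⟩

theorem brec_of_false {a b c : Bool} (h : Bool.rec (motive := fun _ => Bool) a b c = true)
    (hc : c = false) : a = true := by
  subst hc; exact h

theorem brec_of_true {a b c : Bool} (h : Bool.rec (motive := fun _ => Bool) a b c = true)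
    (hc : c = true) : b = true := by
  subst hc; exact h

/-- The walk after the gap: `true` means that `actWord w (ρ x) = ρ y`, using keys older than `τ0`.
The parameters are explicit for the sake of the speed of the kernel: `sz` is the number of letters, `ep` the trivial
letter, `b` the number of bits of the name field of a record, `m = 2 ^ b - 1`, and `E` the array of records. -/
noncomputable def wA (sz ep b m : ℕ) (E : ℕ → ℕ) (τ0 : ℕ) (fuel : ℕ) : List ℕ → ℕ → ℕ → Bool :=
  Nat.rec (motive := fun _ => List ℕ → ℕ → ℕ → Bool) (fun _ _ _ => false)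
    (fun _ ih w x y =>
      List.rec (motive := fun _ => Bool)
        (Bool.rec
          (Bool.rec
            ((fun e => Bool.rec false (ih [] x (Nat.land e m)) (Nat.blt τ0 (Nat.shiftRight e b)))
              (E (Nat.add (Nat.mul y sz) ep)))
            ((fun e => Bool.rec false (ih [] (Nat.land e m) y) (Nat.blt τ0 (Nat.shiftRight e b)))
              (E (Nat.add (Nat.mul x sz) ep)))
            (Nat.blt y x))
          true (Nat.beq x y))
        (fun h w' _ =>
          (fun e => Bool.rec
            ((fun e' => Bool.rec false (ih w (Nat.land e' m) y) (Nat.blt τ0 (Nat.shiftRight e' b)))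
              (E (Nat.add (Nat.mul x sz) ep)))
            (ih w' (Nat.land e m) y)
            (Nat.blt τ0 (Nat.shiftRight e b)))
            (E (Nat.add (Nat.mul x sz) h)))
        w) fuel

/-- The walk before the gap; the gap comes after `p` more letters, it goes from `u` to `v` and has letter `g`. -/
noncomputable def wB (sz ep b m : ℕ) (E : ℕ → ℕ) (τ0 g u v s : ℕ) (fuel : ℕ) : ℕ → List ℕ → ℕ → Bool :=
  Nat.rec (motive := fun _ => ℕ → List ℕ → ℕ → Bool) (fun _ _ _ => false)
    (fun fuel' ih p w x =>
      Nat.rec (motive := fun _ => Bool)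
        (Bool.rec
          ((fun e => Bool.rec false (ih 0 w (Nat.land e m)) (Nat.blt τ0 (Nat.shiftRight e b)))
            (E (Nat.add (Nat.mul x sz) ep)))
          (Bool.rec
            (List.rec (motive := fun _ => Bool) false
              (fun h w' _ => Bool.rec false (wA sz ep b m E τ0 fuel' w' v s) (Nat.beq h g)) w)
            (wA sz ep b m E τ0 fuel' w v s)
            (Nat.beq g ep))
          (Nat.beq x u))
        (fun p' _ =>
          List.rec (motive := fun _ => Bool) false
            (fun h w' _ =>
              (fun e => Bool.rec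
                ((fun e' => Bool.rec false (ih (Nat.succ p') w (Nat.land e' m))
                    (Nat.blt τ0 (Nat.shiftRight e' b)))
                  (E (Nat.add (Nat.mul x sz) ep)))
                (ih p' w' (Nat.land e m))
                (Nat.blt τ0 (Nat.shiftRight e b)))
                (E (Nat.add (Nat.mul x sz) h)))
            w)
        p) fuel

/-- The statement of the key `k`. -/
def Holds (sz m : ℕ) (E : ℕ → ℕ) {X : Type*} (act : ℕ → X → X) (ρ : ℕ → X) (k : ℕ) : Prop :=
  act (k % sz) (ρ (k / sz)) = ρ (Nat.land (E k) m)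

section Soundness

variable {sz ep b m : ℕ} {E : ℕ → ℕ} {X : Type*} {act : ℕ → X → X} {ρ : ℕ → X}

theorem holds_apply (hsz : 0 < sz) {x h : ℕ} (hh : h < sz)
    (H : Holds sz m E act ρ (Nat.add (Nat.mul x sz) h)) :
    act h (ρ x) = ρ (Nat.land (E (Nat.add (Nat.mul x sz) h)) m) := by
  unfold Holds at H
  have e1 : Nat.add (Nat.mul x sz) h = x * sz + h := rfl
  rw [e1] at H ⊢
  have e2 : (x * sz + h) % sz = h := by
    rw [Nat.mul_comm, Nat.mul_add_mod]
    exact Nat.mod_eq_of_lt hh
  have e3 : (x * sz + h) / sz = x := by
    rw [Nat.mul_comm, Nat.mul_add_div hsz, Nat.div_eq_of_lt hh, Nat.add_zero]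
  rwa [e2, e3] at H

theorem jump_eq (hep : ep < sz) (heps : ∀ x, act ep x = x) {τ0 x : ℕ}
    (hold : ∀ k, τ0 < Nat.shiftRight (E k) b → Holds sz m E act ρ k)
    (h : Nat.blt τ0 (Nat.shiftRight (E (Nat.add (Nat.mul x sz) ep)) b) = true) :
    ρ x = ρ (Nat.land (E (Nat.add (Nat.mul x sz) ep)) m) := by
  have h1 := holds_apply (by omega) hep (hold _ (nat_blt_true h))
  rwa [heps] at h1

theorem wA_sound (hep : ep < sz) (heps : ∀ x, act ep x = x) {τ0 : ℕ}
    (hold : ∀ k, τ0 < Nat.shiftRight (E k) b → Holds sz m E act ρ k) :
    ∀ (fuel : ℕ) (w : List ℕ) (x y : ℕ), (∀ h ∈ w, h < sz) → wA sz ep b m E τ0 fuel w x y = true →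
      actWord act w (ρ x) = ρ y := by
  intro fuel
  induction fuel with
  | zero => intro w x y _ h; exact absurd h (by simp [wA])
  | succ fuel ih =>
    intro w x y hw h
    cases w with
    | nil =>
      change (Bool.rec
          (Bool.rec
            (Bool.rec false (wA sz ep b m E τ0 fuel [] x (Nat.land (E (Nat.add (Nat.mul y sz) ep)) m))
              (Nat.blt τ0 (Nat.shiftRight (E (Nat.add (Nat.mul y sz) ep)) b)))
            (Bool.rec false (wA sz ep b m E τ0 fuel [] (Nat.land (E (Nat.add (Nat.mul x sz) ep)) m) y)
              (Nat.blt τ0 (Nat.shiftRight (E (Nat.add (Nat.mul x sz) ep)) b)))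
            (Nat.blt y x))
          true (Nat.beq x y) : Bool) = true at h
      simp only [actWord_nil]
      cases hxy : Nat.beq x y with
      | true => rw [nat_beq_true hxy]
      | false =>
        have h := brec_of_false h hxy
        cases hb : Nat.blt y x with
        | true =>
          obtain ⟨ht, h⟩ := brec_and (brec_of_true h hb)
          rw [jump_eq hep heps hold ht]
          simpa using ih [] _ _ (by simp) h
        | false =>
          obtain ⟨ht, h⟩ := brec_and (brec_of_false h hb)
          rw [jump_eq hep heps hold ht]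
          simpa using ih [] _ _ (by simp) h
    | cons g w' =>
      change (Bool.rec
          (Bool.rec false (wA sz ep b m E τ0 fuel (g :: w') (Nat.land (E (Nat.add (Nat.mul x sz) ep)) m) y)
            (Nat.blt τ0 (Nat.shiftRight (E (Nat.add (Nat.mul x sz) ep)) b)))
          (wA sz ep b m E τ0 fuel w' (Nat.land (E (Nat.add (Nat.mul x sz) g)) m) y)
          (Nat.blt τ0 (Nat.shiftRight (E (Nat.add (Nat.mul x sz) g)) b)) : Bool) = true at h
      cases ht : Nat.blt τ0 (Nat.shiftRight (E (Nat.add (Nat.mul x sz) g)) b) with
      | true =>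
        have h := brec_of_true h ht
        rw [actWord_cons, holds_apply (by omega) (hw g (by simp)) (hold _ (nat_blt_true ht))]
        exact ih w' _ _ (fun a ha => hw a (by simp [ha])) h
      | false =>
        obtain ⟨ht', h⟩ := brec_and (brec_of_false h ht)
        rw [jump_eq hep heps hold ht']
        exact ih _ _ _ hw h

theorem actWord_injective (hinj : ∀ g x y, act g x = act g y → x = y) (w : List ℕ) :
    Function.Injective (actWord act w) := by
  induction w with
  | nil => exact fun _ _ h => h
  | cons g w ih =>
    intro x y h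
    exact hinj g x y (ih h)

theorem wB_sound (hep : ep < sz) (heps : ∀ x, act ep x = x)
    (hinj : ∀ g x y, act g x = act g y → x = y) {τ0 g u v s : ℕ}
    (hold : ∀ k, τ0 < Nat.shiftRight (E k) b → Holds sz m E act ρ k) :
    ∀ (fuel p : ℕ) (w : List ℕ) (x : ℕ), (∀ h ∈ w, h < sz) → wB sz ep b m E τ0 g u v s fuel p w x = true →
      actWord act w (ρ x) = ρ s → act g (ρ u) = ρ v := by
  intro fuel
  induction fuel with
  | zero => intro p w x _ h; exact absurd h (by simp [wB])
  | succ fuel ih =>
    intro p w x hw h hrel
    cases p with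
    | zero =>
      change (Bool.rec
        (Bool.rec false (wB sz ep b m E τ0 g u v s fuel 0 w (Nat.land (E (Nat.add (Nat.mul x sz) ep)) m))
          (Nat.blt τ0 (Nat.shiftRight (E (Nat.add (Nat.mul x sz) ep)) b)))
        (Bool.rec
          (List.rec (motive := fun _ => Bool) false
            (fun h w' _ => Bool.rec false (wA sz ep b m E τ0 fuel w' v s) (Nat.beq h g)) w)
          (wA sz ep b m E τ0 fuel w v s)
          (Nat.beq g ep))
        (Nat.beq x u) : Bool) = true at h
      cases hxu : Nat.beq x u with
      | false =>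
        obtain ⟨ht, h⟩ := brec_and (brec_of_false h hxu)
        refine ih 0 w _ hw h ?_
        rw [← jump_eq hep heps hold ht]
        exact hrel
      | true =>
        have h1 := brec_of_true h hxu
        clear h
        have hxu' := nat_beq_true hxu
        subst hxu'
        cases hg : Nat.beq g ep with
        | true =>
          have h2 := brec_of_true h1 hg
          have h4 := wA_sound hep heps hold fuel w v s hw h2
          have hg' : g = ep := nat_beq_true hg
          rw [hg', heps]
          exact actWord_injective hinj w (hrel.trans h4.symm)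
        | false =>
          have h2 := brec_of_false h1 hg
          cases w with
          | nil => exact absurd h2 (by simp)
          | cons a w' =>
            obtain ⟨hag, h3⟩ := brec_and (show (Bool.rec false (wA sz ep b m E τ0 fuel w' v s)
              (Nat.beq a g) : Bool) = true from h2)
            have hag' := nat_beq_true hag
            subst hag'
            have h4 := wA_sound hep heps hold fuel w' v s (fun b hb => hw b (by simp [hb])) h3
            rw [actWord_cons] at hrel
            exact actWord_injective hinj w' (hrel.trans h4.symm)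
    | succ p' =>
      cases w with
      | nil => exact absurd h (by change false = true at h; simp at h)
      | cons a w' =>
        change (Bool.rec
          (Bool.rec false (wB sz ep b m E τ0 g u v s fuel (Nat.succ p') (a :: w') (Nat.land (E (Nat.add (Nat.mul x sz) ep)) m))
            (Nat.blt τ0 (Nat.shiftRight (E (Nat.add (Nat.mul x sz) ep)) b)))
          (wB sz ep b m E τ0 g u v s fuel p' w' (Nat.land (E (Nat.add (Nat.mul x sz) a)) m))
          (Nat.blt τ0 (Nat.shiftRight (E (Nat.add (Nat.mul x sz) a)) b)) : Bool) = true at h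
        cases ht : Nat.blt τ0 (Nat.shiftRight (E (Nat.add (Nat.mul x sz) a)) b) with
        | true =>
          have h := brec_of_true h ht
          refine ih p' w' _ (fun b hb => hw b (by simp [hb])) h ?_
          rw [actWord_cons, holds_apply (by omega) (hw a (by simp)) (hold _ (nat_blt_true ht))] at hrel
          exact hrel
        | false =>
          obtain ⟨ht', h⟩ := brec_and (brec_of_false h ht)
          refine ih _ _ _ hw h ?_
          rw [← jump_eq hep heps hold ht']
          exact hrel

end Soundness

/-- The check of a key defining a name. -/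
noncomputable def defKey (sz m : ℕ) (pk : ℕ → ℕ) (k e : ℕ) : Bool :=
  (fun y => Bool.rec false
    (Bool.rec false (Nat.blt (Nat.div k sz) y) (Nat.beq (pk y) k))
    (Nat.blt 0 y)) (Nat.land e m)

/-- The check of a key with a reason `r' + 1`: bit `0` of `r'` is a flip flag, then a field for the position of
the gap (`bp` bits), a field for the word (`bw` bits), and the start of the walk. -/
noncomputable def scanKey (sz ep b m : ℕ) (E : ℕ → ℕ) (W : ℕ → List ℕ) (nrel nW fuel bp mp bw mw : ℕ)
    (k e r' : ℕ) : Bool :=
  (fun r2 =>
    (fun r3 =>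
      (fun j s =>
        Bool.rec false
          (Bool.rec
            (Bool.rec false
              (wB sz ep b m E (Nat.shiftRight e b) (Nat.mod k sz) (Nat.land e m) (Nat.div k sz) s
                fuel (Nat.land r2 mp) (W j) s)
              (Nat.beq (Nat.mod k sz) ep))
            (wB sz ep b m E (Nat.shiftRight e b) (Nat.mod k sz) (Nat.div k sz) (Nat.land e m) s
              fuel (Nat.land r2 mp) (W j) s)
            (Nat.beq (Nat.land r' 1) 0))
          (Bool.rec (Bool.rec false (Nat.beq s 0) (Nat.blt j nW)) true (Nat.blt j nrel)))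
        (Nat.land r3 mw) (Nat.shiftRight r3 bw))
      (Nat.shiftRight r2 bp))
    (Nat.shiftRight r' 1)

/-- The check of one key. -/
noncomputable def checkKey (sz ep b m : ℕ) (E : ℕ → ℕ) (W : ℕ → List ℕ) (nrel nW : ℕ)
    (R pk : ℕ → ℕ) (fuel bp mp bw mw : ℕ) (k : ℕ) : Bool :=
  (fun e =>
    Bool.rec
      (Nat.rec (motive := fun _ => Bool) (defKey sz m pk k e)
        (fun r' _ => scanKey sz ep b m E W nrel nW fuel bp mp bw mw k e r') (R k))
      true
      (Nat.beq e 0))
    (E k)

/-- A certificate. -/
structure Cert where
  /-- number of letters, including the trivial letter -/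
  sz : ℕ
  /-- the trivial letter, `sz - 1` -/
  ep : ℕ
  /-- bits of the name field of a record -/
  b : ℕ
  /-- `2 ^ b - 1` -/
  m : ℕ
  /-- records -/
  E : ℕ → ℕ
  /-- words: below `nrel` they act trivially everywhere; from `nrel` to `nW` they fix the base point -/
  W : ℕ → List ℕ
  nrel : ℕ
  nW : ℕ
  /-- number of keys -/
  K : ℕ
  /-- encoded reasons; `0` means the key defines its target name -/
  R : ℕ → ℕ
  /-- the key defining a name -/
  pk : ℕ → ℕ
  fuel : ℕ
  /-- bits of the fields of a reason -/
  bp : ℕ
  mp : ℕ
  bw : ℕ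
  mw : ℕ

namespace Cert

variable (c : Cert)

/-- The check of one key. -/
noncomputable def chk (k : ℕ) : Bool :=
  checkKey c.sz c.ep c.b c.m c.E c.W c.nrel c.nW c.R c.pk c.fuel c.bp c.mp c.bw c.mw k

/-- The fields of a reason. -/
def gapPos (r' : ℕ) : ℕ := Nat.land (Nat.shiftRight r' 1) c.mp
/-- The fields of a reason. -/
def wordIdx (r' : ℕ) : ℕ := Nat.land (Nat.shiftRight (Nat.shiftRight r' 1) c.bp) c.mw
/-- The fields of a reason. -/
def startName (r' : ℕ) : ℕ := Nat.shiftRight (Nat.shiftRight (Nat.shiftRight r' 1) c.bp) c.bw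

/-- What the check of one key gives. -/
theorem chk_spec (k : ℕ) (h : c.chk k = true) (he : c.E k ≠ 0) :
    (0 < Nat.land (c.E k) c.m ∧ c.pk (Nat.land (c.E k) c.m) = k ∧ k / c.sz < Nat.land (c.E k) c.m) ∨
    ∃ r', (c.wordIdx r' < c.nrel ∨ (c.wordIdx r' < c.nW ∧ c.startName r' = 0)) ∧
      (wB c.sz c.ep c.b c.m c.E (Nat.shiftRight (c.E k) c.b) (k % c.sz) (k / c.sz) (Nat.land (c.E k) c.m)
          (c.startName r') c.fuel (c.gapPos r') (c.W (c.wordIdx r')) (c.startName r') = true ∨
       (k % c.sz = c.ep ∧
         wB c.sz c.ep c.b c.m c.E (Nat.shiftRight (c.E k) c.b) (k % c.sz) (Nat.land (c.E k) c.m) (k / c.sz)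
          (c.startName r') c.fuel (c.gapPos r') (c.W (c.wordIdx r')) (c.startName r') = true)) := by
  have hbeq : Nat.beq (c.E k) 0 = false := by
    cases hb : Nat.beq (c.E k) 0 with
    | false => rfl
    | true => exact absurd (Nat.eq_of_beq_eq_true hb) he
  unfold chk checkKey at h
  dsimp only at h
  replace h := brec_of_false h hbeq
  cases hr : c.R k with
  | zero =>
    rw [hr] at h
    change defKey c.sz c.m c.pk k (c.E k) = true at h
    unfold defKey at h
    dsimp only at h
    left
    obtain ⟨h1, h2⟩ := brec_and h
    obtain ⟨h3, h4⟩ := brec_and h2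
    exact ⟨nat_blt_true h1, Nat.eq_of_beq_eq_true h3, nat_blt_true h4⟩
  | succ r' =>
    rw [hr] at h
    change scanKey c.sz c.ep c.b c.m c.E c.W c.nrel c.nW c.fuel c.bp c.mp c.bw c.mw k (c.E k) r' = true at h
    unfold scanKey at h
    dsimp only at h
    right
    refine ⟨r', ?_⟩
    obtain ⟨h1, h2⟩ := brec_and h
    constructor
    · cases h3 : Nat.blt (Nat.land (Nat.shiftRight (Nat.shiftRight r' 1) c.bp) c.mw) c.nrel with
      | true => exact Or.inl (nat_blt_true h3)
      | false =>
        obtain ⟨h4, h5⟩ := brec_and (brec_of_false h1 h3)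
        exact Or.inr ⟨nat_blt_true h4, Nat.eq_of_beq_eq_true h5⟩
    · cases h3 : Nat.beq (Nat.land r' 1) 0 with
      | true =>
        exact Or.inl (brec_of_true h2 h3)
      | false =>
        obtain ⟨h4, h5⟩ := brec_and (brec_of_false h2 h3)
        exact Or.inr ⟨Nat.eq_of_beq_eq_true h4, h5⟩

end Cert

/-- The assignment of points to names determined by the definitions. -/
noncomputable def rho {X : Type*} (act : ℕ → X → X) (x0 : X) (pc pg : ℕ → ℕ) : ℕ → X
  | 0 => x0
  | (d + 1) => if h : pc (d + 1) < d + 1 then act (pg (d + 1)) (rho act x0 pc pg (pc (d + 1))) else x0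
decreasing_by exact h

theorem rho_zero {X : Type*} (act : ℕ → X → X) (x0 : X) (pc pg : ℕ → ℕ) :
    rho act x0 pc pg 0 = x0 := by
  rw [rho]

theorem rho_succ {X : Type*} (act : ℕ → X → X) (x0 : X) (pc pg : ℕ → ℕ) (d : ℕ) (h : 0 < d)
    (h' : pc d < d) : rho act x0 pc pg d = act (pg d) (rho act x0 pc pg (pc d)) := by
  obtain ⟨e, rfl⟩ : ∃ e, d = e + 1 := ⟨d - 1, by omega⟩
  rw [rho]
  simp [h']

section Main

variable {X : Type*} (c : Cert) (act : ℕ → X → X) (x0 : X)

/-- The assignment of a checked certificate. -/
noncomputable def Cert.ρ : ℕ → X :=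
  rho act x0 (fun y => c.pk y / c.sz) (fun y => c.pk y % c.sz)

theorem Cert.ρ_zero : c.ρ act x0 0 = x0 := rho_zero _ _ _ _

variable (hep : c.ep < c.sz) (heps : ∀ x, act c.ep x = x)
  (hinj : ∀ g x y, act g x = act g y → x = y)
  (hE : ∀ k, c.K ≤ k → c.E k = 0)
  (hwords : ∀ j, j < c.nW → ∀ h ∈ c.W j, h < c.sz)
  (hrel : ∀ j, j < c.nrel → ∀ x, actWord act (c.W j) x = x)
  (hnle : c.nrel ≤ c.nW)
  (hsub : ∀ j, j < c.nW → c.nrel ≤ j → actWord act (c.W j) x0 = x0)
  (hcheck : ∀ k, k < c.K → c.chk k = true)

include hep heps hinj hE hwords hrel hnle hsub hcheck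

/-- All keys of a checked certificate hold. -/
theorem Cert.holds_all : ∀ k, 0 < Nat.shiftRight (c.E k) c.b →
    Holds c.sz c.m c.E act (c.ρ act x0) k := by
  classical
  have hsz : 0 < c.sz := by omega
  have hzero : ∀ b, Nat.shiftRight 0 b = 0 := fun b => Nat.zero_shiftRight b
  -- induction on the priority, downwards
  let B : ℕ := (Finset.range c.K).sup (fun k => Nat.shiftRight (c.E k) c.b)
  have hB : ∀ k, Nat.shiftRight (c.E k) c.b ≤ B := by
    intro k
    by_cases hk : k < c.K
    · exact Finset.le_sup (f := fun k => Nat.shiftRight (c.E k) c.b) (Finset.mem_range.mpr hk)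
    · rw [hE k (by omega), hzero]
      exact Nat.zero_le _
  suffices H : ∀ n k, B - Nat.shiftRight (c.E k) c.b = n → 0 < Nat.shiftRight (c.E k) c.b →
      Holds c.sz c.m c.E act (c.ρ act x0) k from fun k hk => H _ k rfl hk
  intro n
  induction n using Nat.strong_induction_on with
  | _ n ih =>
    intro k hkn hk0
    have hkK : k < c.K := by
      by_contra hh
      rw [hE k (by omega), hzero] at hk0
      exact absurd hk0 (by omega)
    have hold : ∀ k', Nat.shiftRight (c.E k) c.b < Nat.shiftRight (c.E k') c.b →
        Holds c.sz c.m c.E act (c.ρ act x0) k' := by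
      intro k' hk'
      have := hB k'
      exact ih (B - Nat.shiftRight (c.E k') c.b) (by omega) k' rfl (by omega)
    have he0 : c.E k ≠ 0 := by
      intro h0
      rw [h0, hzero] at hk0
      exact absurd hk0 (by omega)
    have hspec := c.chk_spec k (hcheck k hkK) he0
    show act (k % c.sz) (c.ρ act x0 (k / c.sz)) = c.ρ act x0 (Nat.land (c.E k) c.m)
    rcases hspec with ⟨hy0, hpk, hlt⟩ | ⟨r', hrel', hrest⟩
    · -- the definition of a name
      have hlt' : c.pk (Nat.land (c.E k) c.m) / c.sz < Nat.land (c.E k) c.m := by
        rw [hpk]; exact hlt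
      unfold Cert.ρ
      rw [rho_succ act x0 (fun y => c.pk y / c.sz) (fun y => c.pk y % c.sz) _ hy0 hlt']
      simp only [hpk]
    · -- a scan
      have hjW : c.wordIdx r' < c.nW ∧ actWord act (c.W (c.wordIdx r')) (c.ρ act x0 (c.startName r')) =
          c.ρ act x0 (c.startName r') := by
        rcases hrel' with h1 | ⟨h1, hs0⟩
        · exact ⟨lt_of_lt_of_le h1 hnle, hrel _ h1 _⟩
        · refine ⟨h1, ?_⟩
          rw [hs0]
          show actWord act (c.W _) (rho act x0 _ _ 0) = rho act x0 _ _ 0
          rw [rho_zero]
          by_cases h2 : c.wordIdx r' < c.nrel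
          · exact hrel _ h2 _
          · exact hsub _ h1 (by omega)
      obtain ⟨hjW, hws⟩ := hjW
      have hletters := hwords _ hjW
      rcases hrest with hw | ⟨hg, hw⟩
      · exact wB_sound hep heps hinj hold c.fuel _ _ _ hletters hw hws
      · have h5 := wB_sound hep heps hinj hold c.fuel _ _ _ hletters hw hws
        rw [hg, heps] at h5 ⊢
        exact h5.symm

/-- The final check: the letters act as prescribed on the named points. -/
theorem Cert.final {g x y : ℕ} (hg : g < c.sz)
    (h : wA c.sz c.ep c.b c.m c.E 0 c.fuel [g] x y = true) :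
    act g (c.ρ act x0 x) = c.ρ act x0 y := by
  have := wA_sound (ρ := c.ρ act x0) hep heps (τ0 := 0)
    (fun k hk => c.holds_all act x0 hep heps hinj hE hwords hrel hnle hsub hcheck k hk)
    c.fuel [g] x y (by simpa using hg) h
  simpa using this

end Main

end Cfsg.Agent.Lib.TC
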