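/-
Helpers for kernel evaluation of big certificates.
-/
import Cfsg.Agent.Lib.TC.Basic

set_option autoImplicit false

namespace Cfsg.Agent.Lib.TC

/-- Element `i` of a list of words. -/
noncomputable def wordAt (l : List (List ℕ)) : ℕ → List ℕ :=
  List.rec (motive := fun _ => ℕ → List ℕ) (fun _ => [])
    (fun h _ ih i => Nat.rec (motive := fun _ => List ℕ) h (fun i' _ => ih i') i) l

theorem wordAt_nil (i : ℕ) : wordAt [] i = [] := rfl
theorem wordAt_cons_zero (h : List ℕ) (l : List (List ℕ)) : wordAt (h :: l) 0 = h := rfl
theorem wordAt_cons_succ (h : List ℕ) (l : List (List ℕ)) (i : ℕ) :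
    wordAt (h :: l) (i + 1) = wordAt l i := rfl

theorem wordAt_eq_getD (l : List (List ℕ)) (i : ℕ) : wordAt l i = l.getD i [] := by
  induction l generalizing i with
  | nil => simp [wordAt_nil]
  | cons h l ih =>
    cases i with
    | zero => simp [wordAt_cons_zero]
    | succ i => simp [wordAt_cons_succ, ih]

/-- A conditional with one delta step at its head, which keeps the stack of the kernel flat in long loops. -/
def bif' (c a b : Bool) : Bool := Bool.rec b a c

/-- A loop: `f (lo + i) = true` for `i < n`. -/
noncomputable def allFrom (f : ℕ → Bool) (lo n : ℕ) : Bool :=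
  Nat.rec (motive := fun _ => Bool) true
    (fun i ih => bif' (f (Nat.add lo i)) ih false) n

theorem allFrom_spec (f : ℕ → Bool) (lo n : ℕ) (h : allFrom f lo n = true) :
    ∀ i, i < n → f (lo + i) = true := by
  induction n with
  | zero => intro i hi; omega
  | succ n ih =>
    have h' : (Bool.rec false (allFrom f lo n) (f (Nat.add lo n)) : Bool) = true := h
    cases h2 : f (Nat.add lo n) with
    | false => rw [h2] at h'; exact absurd h' (by simp)
    | true =>
      rw [h2] at h'
      intro i hi
      rcases Nat.lt_succ_iff_lt_or_eq.1 hi with hi' | rfl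
      · exact ih h' i hi'
      · exact h2

/-- Coverage of an initial segment. -/
def Done (f : ℕ → Bool) (n : ℕ) : Prop := ∀ k, k < n → f k = true

theorem Done.zero (f : ℕ → Bool) : Done f 0 := fun k hk => absurd hk (by omega)

theorem Done.step {f : ℕ → Bool} {lo n lo' : ℕ} (h1 : Done f lo) (h2 : allFrom f lo n = true)
    (h3 : lo + n = lo') : Done f lo' := by
  intro k hk
  by_cases hk' : k < lo
  · exact h1 k hk'
  · have := allFrom_spec f lo n h2 (k - lo) (by omega)
    rwa [Nat.add_sub_cancel' (by omega)] at this

/-- A guarded array. -/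
theorem guard_zero (K : ℕ) (f : ℕ → ℕ) (k : ℕ) (hk : K ≤ k) :
    (Bool.rec 0 (f k) (Nat.blt k K) : ℕ) = 0 := by
  have : Nat.blt k K = false := by
    cases h : Nat.blt k K with
    | false => rfl
    | true => exact absurd (nat_blt_true h) (by omega)
  rw [this]

end Cfsg.Agent.Lib.TC
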