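/-
Coset enumeration certificates applied to groups: an upper bound for the index of a subgroup.
-/
import Cfsg.Agent.Lib.TC.Arr

set_option autoImplicit false

namespace Cfsg.Agent.Lib.TC

open scoped Pointwise

section Eval

variable {K : Type*} [Group K]

/-- The value of a word: the product of its letters, first letter first. -/
def evalWord (v : ℕ → K) : List ℕ → K
  | [] => 1
  | g :: w => v g * evalWord v w

@[simp] theorem evalWord_nil (v : ℕ → K) : evalWord v [] = 1 := rfl
@[simp] theorem evalWord_cons (v : ℕ → K) (g : ℕ) (w : List ℕ) :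
    evalWord v (g :: w) = v g * evalWord v w := rfl

theorem map_evalWord {H : Type*} [Group H] (f : K →* H) (v : ℕ → K) (w : List ℕ) :
    f (evalWord v w) = evalWord (fun g => f (v g)) w := by
  induction w with
  | nil => simp
  | cons g w ih => simp [ih]

/-- The action of the letters on cosets. -/
def cosetAct (L : Subgroup K) (v : ℕ → K) (g : ℕ) (x : K ⧸ L) : K ⧸ L := (v g)⁻¹ • x

theorem actWord_cosetAct (L : Subgroup K) (v : ℕ → K) (w : List ℕ) (x : K ⧸ L) :
    actWord (cosetAct L v) w x = (evalWord v w)⁻¹ • x := by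
  induction w generalizing x with
  | nil => simp
  | cons g w ih =>
    rw [actWord_cons, ih, evalWord_cons, mul_inv_rev, mul_smul]
    rfl

end Eval

section Index

variable {K : Type*} [Group K] (L : Subgroup K) (v : ℕ → K) (c : Cert)

/-- The points named in a certificate cover the cosets. -/
theorem index_le_of_cert {ι : Type*} (code : ι → ℕ) (inv : ℕ → ℕ)
    (hgen : Subgroup.closure (Set.range fun x => v (code x)) = ⊤)
    (hvinv : ∀ x, v (inv (code x)) = (v (code x))⁻¹)
    (hep : c.ep < c.sz) (hv1 : v c.ep = 1)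
    (hE : ∀ k, c.K ≤ k → c.E k = 0)
    (hwords : ∀ j, j < c.nW → ∀ h ∈ c.W j, h < c.sz)
    (hrel : ∀ j, j < c.nrel → evalWord v (c.W j) = 1)
    (hnle : c.nrel ≤ c.nW)
    (hsub : ∀ j, j < c.nW → c.nrel ≤ j → evalWord v (c.W j) ∈ L)
    (hcheck : ∀ k, k < c.K → c.chk k = true)
    (n ng : ℕ) (nm : ℕ → ℕ) (T : ℕ → ℕ → ℕ) (hn : 0 < n) (hnm0 : nm 0 = 0) (hng : ng ≤ c.sz)
    (hcode : ∀ x, code x < ng) (hinv : ∀ x, inv (code x) < ng)
    (hfin : ∀ i, i < n → ∀ g, g < ng → T i g < n ∧
      wA c.sz c.ep c.b c.m c.E 0 c.fuel [g] (nm i) (nm (T i g)) = true) :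
    L.index ≠ 0 ∧ L.index ≤ n := by
  classical
  set act := cosetAct L v with hact
  set x0 : K ⧸ L := ((1 : K) : K ⧸ L) with hx0
  have heps : ∀ x, act c.ep x = x := by
    intro x
    simp [hact, cosetAct, hv1]
  have hinj : ∀ g x y, act g x = act g y → x = y := by
    intro g x y h
    exact smul_left_cancel _ h
  have hrel' : ∀ j, j < c.nrel → ∀ x, actWord act (c.W j) x = x := by
    intro j hj x
    rw [hact, actWord_cosetAct, hrel j hj]
    simp
  have hsub' : ∀ j, j < c.nW → c.nrel ≤ j → actWord act (c.W j) x0 = x0 := by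
    intro j hj hj'
    rw [hact, actWord_cosetAct, hx0, MulAction.Quotient.smul_coe]
    show (((evalWord v (c.W j))⁻¹ • (1 : K) : K) : K ⧸ L) = _
    rw [QuotientGroup.eq]
    simpa using hsub j hj hj'
  have hstep : ∀ i, i < n → ∀ g, g < ng →
      act g (c.ρ act x0 (nm i)) = c.ρ act x0 (nm (T i g)) := by
    intro i hi g hg
    exact c.final act x0 hep heps hinj hE hwords hrel' hnle hsub' hcheck
      (by omega) (hfin i hi g hg).2
  -- the named points
  let S : Set (K ⧸ L) := {x | ∃ i, i < n ∧ c.ρ act x0 (nm i) = x}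
  have hS1 : ∀ x, x ∈ S → ∀ g, g < ng → (v g)⁻¹ • x ∈ S := by
    rintro _ ⟨i, hi, rfl⟩ g hg
    exact ⟨T i g, (hfin i hi g hg).1, (hstep i hi g hg).symm⟩
  have hall : ∀ k : K, (∀ x, x ∈ S → k • x ∈ S) ∧ (∀ x, x ∈ S → k⁻¹ • x ∈ S) := by
    intro k
    have hk : k ∈ Subgroup.closure (Set.range fun x => v (code x)) := by rw [hgen]; trivial
    induction hk using Subgroup.closure_induction with
    | mem a ha =>
      obtain ⟨x, rfl⟩ := ha
      constructor
      · intro y hy
        have := hS1 y hy _ (hinv x)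
        rwa [hvinv, inv_inv] at this
      · intro y hy
        exact hS1 y hy _ (hcode x)
    | one => constructor <;> (intro x hx; simpa using hx)
    | mul a b _ _ ha hb =>
      constructor
      · intro x hx
        rw [mul_smul]
        exact ha.1 _ (hb.1 _ hx)
      · intro x hx
        rw [mul_inv_rev, mul_smul]
        exact hb.2 _ (ha.2 _ hx)
    | inv a _ ha =>
      constructor
      · exact ha.2
      · intro x hx
        rw [inv_inv]
        exact ha.1 x hx
  have hx0S : x0 ∈ S := by
    refine ⟨0, hn, ?_⟩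
    rw [hnm0]
    exact c.ρ_zero act x0
  have hsurj : Function.Surjective (fun i : Fin n => c.ρ act x0 (nm i)) := by
    intro q
    obtain ⟨k, rfl⟩ := QuotientGroup.mk_surjective q
    have := (hall k).1 x0 hx0S
    rw [hx0, MulAction.Quotient.smul_coe] at this
    obtain ⟨i, hi, h⟩ := this
    refine ⟨⟨i, hi⟩, ?_⟩
    simpa using h
  have hfinite : Finite (K ⧸ L) := Finite.of_surjective _ hsurj
  have hne : Nonempty (K ⧸ L) := ⟨x0⟩
  constructor
  · show Nat.card (K ⧸ L) ≠ 0
    exact Nat.card_pos.ne'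
  · show Nat.card (K ⧸ L) ≤ n
    have := Nat.card_le_card_of_surjective _ hsurj
    simpa using this

end Index

end Cfsg.Agent.Lib.TC
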