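/-
Homomorphisms from a subgroup to a group with a faithful permutation representation, from an intertwining map of points;
and a criterion for a non-split double cover.
-/
import Cfsg.Agent.Lib.TC.Coset
import Cfsg.Prelude.Def_SporadicB

set_option autoImplicit false

namespace Cfsg.Agent.Lib.TC

section Inter

variable {G K X Y ι : Type*} [Group G] [Group K]

/-- A homomorphism from a subgroup generated by elements `x j`, acting on a set, to a group acting faithfully on a
subset, when the generators act like elements of the group. -/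
theorem exists_hom_of_intertwine (α : G →* Equiv.Perm X) (β : K →* Equiv.Perm Y) (hβ : Function.Injective β)
    (e : Y → X) (he : Function.Injective e) (J : Set ι) (x : ι → G) (z : ι → K)
    (hf : ∀ j ∈ J, ∀ y, α (x j) (e y) = e (β (z j) y)) :
    ∃ ψ : Subgroup.closure (x '' J) →* K,
      ∀ j (hj : j ∈ J), ψ ⟨x j, Subgroup.subset_closure ⟨j, hj, rfl⟩⟩ = z j := by
  classical
  have hex : ∀ g ∈ Subgroup.closure (x '' J), ∃ k : K, ∀ y, α g (e y) = e (β k y) := by
    intro g hg
    induction hg using Subgroup.closure_induction with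
    | mem g hg =>
      obtain ⟨j, hj, rfl⟩ := hg
      exact ⟨z j, hf j hj⟩
    | one => exact ⟨1, by simp⟩
    | mul a b _ _ ha hb =>
      obtain ⟨k₁, h₁⟩ := ha
      obtain ⟨k₂, h₂⟩ := hb
      exact ⟨k₁ * k₂, fun y => by simp [h₂, h₁]⟩
    | inv a _ ha =>
      obtain ⟨k, h⟩ := ha
      refine ⟨k⁻¹, fun y => ?_⟩
      rw [map_inv, map_inv, Equiv.Perm.inv_eq_iff_eq, h]
      simp
  choose! F hF using hex
  have huniq : ∀ g, ∀ k₁ k₂ : K, (∀ y, α g (e y) = e (β k₁ y)) → (∀ y, α g (e y) = e (β k₂ y)) → k₁ = k₂ := by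
    intro g k₁ k₂ h₁ h₂
    apply hβ
    ext y
    apply he
    rw [← h₁, ← h₂]
  refine ⟨{ toFun := fun g => F g.1, map_one' := ?_, map_mul' := ?_ }, ?_⟩
  · apply huniq 1 _ _ (hF 1 (Subgroup.one_mem _))
    intro y
    simp
  · intro a b
    apply huniq (a.1 * b.1) _ _ (hF _ (Subgroup.mul_mem _ a.2 b.2))
    intro y
    simp only [map_mul, Equiv.Perm.mul_apply]
    rw [hF _ b.2, hF _ a.2]
  · intro j hj
    exact huniq (x j) _ _ (hF _ (Subgroup.subset_closure ⟨j, hj, rfl⟩)) (hf j hj)

end Inter

section Cover

variable {H K : Type*} [Group H] [Group K]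

/-- A normal subgroup of order two is central. -/
theorem le_center_of_normal_card_two (Z : Subgroup H) [Z.Normal] (hZ : Nat.card Z = 2) : Z ≤ Subgroup.center H := by
  classical
  intro z hz
  rw [Subgroup.mem_center_iff]
  intro g
  by_cases h1 : z = 1
  · simp [h1]
  obtain ⟨a, b, hab, hall⟩ := Nat.card_eq_two_iff.1 hZ
  have hne : g * z * g⁻¹ ≠ 1 := by
    intro h
    apply h1
    have : z = g⁻¹ * (g * z * g⁻¹) * g := by group
    rw [this, h]
    simp
  have hmem : g * z * g⁻¹ ∈ Z := Subgroup.Normal.conj_mem inferInstance z hz g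
  have key : ∀ u ∈ Z, u ≠ 1 → u = z := by
    intro u hu hu1
    have hall' : ∀ w : Z, w = a ∨ w = b := by
      intro w
      have : w ∈ ({a, b} : Set Z) := by rw [hall]; trivial
      simpa using this
    have h0 : ∃ t : Z, (t : H) = 1 := ⟨1, rfl⟩
    rcases hall' 1 with h2 | h2 <;> rcases hall' ⟨u, hu⟩ with h3 | h3 <;> rcases hall' ⟨z, hz⟩ with h4 | h4
    all_goals first
      | (exfalso; apply hu1; have := congrArg Subtype.val (h3.trans h2.symm); simpa using this)
      | (exfalso; apply h1; have := congrArg Subtype.val (h4.trans h2.symm); simpa using this)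
      | (have := congrArg Subtype.val (h3.trans h4.symm); simpa using this)
  have h2 := key _ hmem hne
  calc g * z = (g * z * g⁻¹) * g := by group
    _ = z * g := by rw [h2]

/-- A criterion for a non-split double cover. -/
theorem isNonsplitDoubleCover_of_hom [Finite H] (ψ : H →* K) (hs : Function.Surjective ψ)
    (hcard : Nat.card H = 2 * Nat.card K) (hpos : 0 < Nat.card K) (hc : Subgroup.center K = ⊥)
    (hno : ∀ L : Subgroup H, L.index = 2 → False) : Cfsg.IsNonsplitDoubleCover H K := by
  classical
  have hker : Nat.card ψ.ker = 2 := by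
    have h1 := Subgroup.card_mul_index ψ.ker
    have h2 : ψ.ker.index = Nat.card K := by
      rw [Subgroup.index_ker, MonoidHom.range_eq_top.2 hs]
      simp
    rw [h2, hcard] at h1
    exact Nat.eq_of_mul_eq_mul_right hpos h1
  have h1 : ψ.ker ≤ Subgroup.center H := le_center_of_normal_card_two _ hker
  have h2 : Subgroup.center H ≤ ψ.ker := by
    intro z hz
    rw [MonoidHom.mem_ker]
    have : ψ z ∈ Subgroup.center K := by
      rw [Subgroup.mem_center_iff]
      intro k
      obtain ⟨g, rfl⟩ := hs k
      rw [← map_mul, ← map_mul, (Subgroup.mem_center_iff.1 hz) g]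
    rw [hc] at this
    exact Subgroup.mem_bot.1 this
  have heq : Subgroup.center H = ψ.ker := le_antisymm h2 h1
  refine ⟨by rw [heq]; exact hker, ?_, ?_⟩
  · refine ⟨?_⟩
    have := QuotientGroup.quotientKerEquivOfSurjective ψ hs
    exact (QuotientGroup.quotientMulEquivOfEq heq).trans this
  · intro L hL
    apply hno L
    have := hL.index_eq_card
    rw [this, heq]
    exact hker

/-- A product of elements outside a subgroup of index two, and powers. -/
theorem not_mem_pow_odd {L : Subgroup H} (hL : L.index = 2) {u : H} (hu : u ∉ L) (k : ℕ) : u ^ (2 * k + 1) ∉ L := by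
  rw [pow_succ, pow_mul]
  intro h
  have h1 : (u ^ 2) ^ k ∈ L := L.pow_mem (Subgroup.sq_mem_of_index_two hL u) k
  exact hu ((Subgroup.mul_mem_cancel_left L h1).1 h)

theorem mem_iff_of_cube {L : Subgroup H} (hL : L.index = 2) {u v : H} (h : (u * v) ^ 3 = 1) : u ∈ L ↔ v ∈ L := by
  have h1 : (u * v) ^ 2 ∈ L := Subgroup.sq_mem_of_index_two hL _
  have h2 : (u * v) ^ 2 * (u * v) ∈ L := by
    rw [← pow_succ, h]
    exact L.one_mem
  have h3 : u * v ∈ L := (Subgroup.mul_mem_cancel_left L h1).1 h2
  exact (Subgroup.mul_mem_iff_of_index_two hL).1 h3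

/-- A group generated by conjugate elements, with a relation of odd length, has no subgroup of index two. -/
theorem no_index_two (L : Subgroup H) (hL : L.index = 2) (n : ℕ) (ax : ℕ → H)
    (hgen : Subgroup.closure (ax '' {j | j < n}) = ⊤)
    (hconn : ∀ j, j < n → (ax j ∈ L ↔ ax 0 ∈ L)) (w : List ℕ) (hw : ∀ j ∈ w, j < n) (hodd : Odd w.length)
    (m : ℕ) (hm : (evalWord ax w) ^ (2 * m + 1) = 1) : False := by
  by_cases h0 : ax 0 ∈ L
  · have h1 : Subgroup.closure (ax '' {j | j < n}) ≤ L := by
      apply (Subgroup.closure_le _).2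
      rintro _ ⟨j, hj, rfl⟩
      exact (hconn j hj).2 h0
    rw [hgen, top_le_iff] at h1
    rw [h1, Subgroup.index_top] at hL
    omega
  · have h1 : ∀ v : List ℕ, (∀ j ∈ v, j < n) → (evalWord ax v ∈ L ↔ Even v.length) := by
      intro v
      induction v with
      | nil => simp
      | cons g v ih =>
        intro hv
        have h2 := ih (fun a ha => hv a (by simp [ha]))
        have h3 : ax g ∉ L := fun h => h0 ((hconn g (hv g (by simp))).1 h)
        rw [evalWord_cons, Subgroup.mul_mem_iff_of_index_two hL, h2, List.length_cons, Nat.even_add_one]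
        tauto
    have h2 : evalWord ax w ∉ L := by
      rw [h1 w hw]
      exact Nat.not_even_iff_odd.2 hodd
    apply not_mem_pow_odd hL h2 m
    rw [hm]
    exact L.one_mem

/-- The centre of a finite simple group whose order is not prime is trivial. -/
theorem center_eq_bot_of_simple [Finite K] [IsSimpleGroup K] (h : ¬ (Nat.card K).Prime) : Subgroup.center K = ⊥ := by
  rcases IsSimpleGroup.eq_bot_or_eq_top_of_normal (Subgroup.center K) inferInstance with h1 | h1
  · exact h1
  · exfalso
    apply h
    let _ : CommGroup K := { (inferInstance : Group K) with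
      mul_comm := fun a b => ((Subgroup.mem_center_iff.1 (h1 ▸ Subgroup.mem_top a)) b).symm }
    exact IsSimpleGroup.prime_card

end Cover

end Cfsg.Agent.Lib.TC
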