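/-
Permutation representations from coset tables: a table satisfying the relators gives a homomorphism from a presented
group to a symmetric group; together with a certificate for the upper bound it identifies the cosets of a subgroup
with the points of the table.
-/
import Cfsg.Agent.Lib.TC.Coset

set_option autoImplicit false

namespace Cfsg.Agent.Lib.TC

open scoped Pointwise

/-- Walk along a word in a table. -/
noncomputable def walk (T : ℕ → ℕ → ℕ) (w : List ℕ) : ℕ → ℕ :=
  List.rec (motive := fun _ => ℕ → ℕ) (fun i => i) (fun g _ ih i => ih (T i g)) w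

@[simp] theorem walk_nil (T : ℕ → ℕ → ℕ) (i : ℕ) : walk T [] i = i := rfl
@[simp] theorem walk_cons (T : ℕ → ℕ → ℕ) (g : ℕ) (w : List ℕ) (i : ℕ) :
    walk T (g :: w) i = walk T w (T i g) := rfl

theorem walk_append (T : ℕ → ℕ → ℕ) (u w : List ℕ) (i : ℕ) :
    walk T (u ++ w) i = walk T w (walk T u i) := by
  induction u generalizing i with
  | nil => rfl
  | cons g u ih => simp [ih]

/-- A coset table. -/
structure Tbl where
  /-- number of points -/
  n : ℕ
  /-- number of letters -/
  ng : ℕ
  /-- the table -/
  T : ℕ → ℕ → ℕ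
  /-- the inverse of a letter -/
  inv : ℕ → ℕ
  hT : ∀ i, i < n → ∀ g, g < ng → T i g < n
  hinv : ∀ g, g < ng → inv g < ng ∧ inv (inv g) = g
  hTT : ∀ i, i < n → ∀ g, g < ng → T (T i g) (inv g) = i

namespace Tbl

variable (t : Tbl)

/-- The permutation of a letter: `i` goes to `i · g⁻¹`, so that `perm` extends to a homomorphism. -/
noncomputable def perm (g : ℕ) : Equiv.Perm (Fin t.n) :=
  if hg : g < t.ng then
    { toFun := fun i => ⟨t.T i (t.inv g), t.hT i i.2 _ (t.hinv g hg).1⟩
      invFun := fun i => ⟨t.T i g, t.hT i i.2 g hg⟩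
      left_inv := fun i => by
        apply Fin.ext
        show t.T (t.T i (t.inv g)) g = i
        have := t.hTT i i.2 (t.inv g) (t.hinv g hg).1
        rwa [(t.hinv g hg).2] at this
      right_inv := fun i => by
        apply Fin.ext
        exact t.hTT i i.2 g hg }
  else 1

theorem perm_symm_val {g : ℕ} (hg : g < t.ng) (i : Fin t.n) : ((t.perm g)⁻¹ i).val = t.T i g := by
  simp only [perm, dif_pos hg]
  rfl

theorem perm_val {g : ℕ} (hg : g < t.ng) (i : Fin t.n) : ((t.perm g) i).val = t.T i (t.inv g) := by
  simp only [perm, dif_pos hg]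
  rfl

theorem perm_inv {g : ℕ} (hg : g < t.ng) : t.perm (t.inv g) = (t.perm g)⁻¹ := by
  ext i
  rw [perm_val t (t.hinv g hg).1, (t.hinv g hg).2, perm_symm_val t hg]

theorem evalWord_symm_val (w : List ℕ) (hw : ∀ g ∈ w, g < t.ng) (i : Fin t.n) :
    ((evalWord t.perm w)⁻¹ i).val = walk t.T w i := by
  induction w generalizing i with
  | nil => simp
  | cons g w ih =>
    have hg : g < t.ng := hw g (by simp)
    rw [evalWord_cons, mul_inv_rev, Equiv.Perm.mul_apply, ih (fun a ha => hw a (by simp [ha])), walk_cons,
      perm_symm_val t hg]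

end Tbl

section Lift

variable {α : Type*} [DecidableEq α] (code : α → ℕ) (inv : ℕ → ℕ)

/-- The code of a word of the free group. -/
def encW (r : FreeGroup α) : List ℕ :=
  r.toWord.map fun p => if p.2 then code p.1 else inv (code p.1)

theorem lift_eq_evalWord {H : Type*} [Group H] (v : ℕ → H)
    (hv : ∀ x, v (inv (code x)) = (v (code x))⁻¹) (r : FreeGroup α) :
    FreeGroup.lift (fun x => v (code x)) r = evalWord v (encW code inv r) := by
  conv_lhs => rw [← FreeGroup.mk_toWord (x := r)]
  rw [FreeGroup.lift_mk, encW]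
  generalize r.toWord = L
  induction L with
  | nil => simp
  | cons p L ih =>
    obtain ⟨x, b⟩ := p
    cases b <;> simp [ih, hv]

end Lift

end Cfsg.Agent.Lib.TC
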