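/-
Presented groups and coset tables.
-/
import Cfsg.Agent.Lib.TC.Table

set_option autoImplicit false

namespace Cfsg.Agent.Lib.TC

open scoped Pointwise

section Rep

variable {α : Type*} [DecidableEq α] {rels : Set (FreeGroup α)}
  (t : Tbl) (code : α → ℕ)

/-- The hypotheses for a table to be a permutation representation of a presented group. -/
structure IsRep (rels : Set (FreeGroup α)) (t : Tbl) (code : α → ℕ) : Prop where
  hcode : ∀ x, code x < t.ng
  hrels : ∀ r ∈ rels, ∀ i, i < t.n → walk t.T (encW code t.inv r) i = i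

variable {t code}

theorem encW_lt (hc : ∀ x, code x < t.ng) (r : FreeGroup α) :
    ∀ g ∈ encW code t.inv r, g < t.ng := by
  intro g hg
  simp only [encW, List.mem_map] at hg
  obtain ⟨p, _, rfl⟩ := hg
  split_ifs
  · exact hc _
  · exact (t.hinv _ (hc _)).1

theorem lift_perm_eq (hc : ∀ x, code x < t.ng) (r : FreeGroup α) :
    FreeGroup.lift (fun x => t.perm (code x)) r = evalWord t.perm (encW code t.inv r) :=
  lift_eq_evalWord code t.inv t.perm (fun x => t.perm_inv (hc x)) r

theorem lift_perm_symm_val (hc : ∀ x, code x < t.ng) (r : FreeGroup α) (i : Fin t.n) :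
    ((FreeGroup.lift (fun x => t.perm (code x)) r)⁻¹ i).val = walk t.T (encW code t.inv r) i := by
  rw [lift_perm_eq hc, t.evalWord_symm_val _ (encW_lt hc r)]

namespace IsRep

variable (h : IsRep rels t code)
include h

theorem lift_eq_one : ∀ r ∈ rels, FreeGroup.lift (fun x => t.perm (code x)) r = 1 := by
  intro r hr
  rw [← inv_eq_one]
  ext i
  rw [lift_perm_symm_val h.hcode, h.hrels r hr i i.2]
  rfl

/-- The homomorphism to the symmetric group. -/
noncomputable def φ : PresentedGroup rels →* Equiv.Perm (Fin t.n) :=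
  PresentedGroup.toGroup h.lift_eq_one

theorem φ_mk (r : FreeGroup α) :
    h.φ (PresentedGroup.mk rels r) = FreeGroup.lift (fun x => t.perm (code x)) r := rfl

theorem φ_of (x : α) : h.φ (PresentedGroup.of x) = t.perm (code x) :=
  PresentedGroup.toGroup.of h.lift_eq_one

theorem φ_mk_symm_val (r : FreeGroup α) (i : Fin t.n) :
    ((h.φ (PresentedGroup.mk rels r))⁻¹ i).val = walk t.T (encW code t.inv r) i := by
  rw [φ_mk, lift_perm_symm_val h.hcode]

theorem perm_mem_range {g : ℕ} (hg : g < t.ng) (hl : ∃ x, g = code x ∨ g = t.inv (code x)) :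
    t.perm g ∈ h.φ.range := by
  obtain ⟨x, rfl | rfl⟩ := hl
  · exact ⟨PresentedGroup.of x, h.φ_of x⟩
  · rw [t.perm_inv (h.hcode x)]
    exact ⟨(PresentedGroup.of x)⁻¹, by rw [map_inv, h.φ_of]⟩

end IsRep

end Rep

/-- An identification of the cosets of a subgroup with the points of a permutation representation. -/
structure CosetRep {G : Type*} [Group G] (H : Subgroup G) (n : ℕ) where
  φ : G →* Equiv.Perm (Fin n)
  e : G ⧸ H ≃ Fin n
  e_smul : ∀ g q, e (g • q) = φ g (e q)

namespace CosetRep

variable {G : Type*} [Group G] {H : Subgroup G} {n : ℕ} (R : CosetRep H n)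

include R in
theorem index_eq : H.index = n := by
  show Nat.card (G ⧸ H) = n
  rw [Nat.card_congr R.e]
  simp

/-- The base point. -/
def base : Fin n := R.e ((1 : G) : G ⧸ H)

theorem e_mk (g : G) : R.e (g : G ⧸ H) = R.φ g R.base := by
  have : (g : G ⧸ H) = g • ((1 : G) : G ⧸ H) := by
    rw [MulAction.Quotient.smul_coe]; simp
  rw [this, R.e_smul]
  rfl

theorem mem_iff (g : G) : g ∈ H ↔ R.φ g R.base = R.base := by
  rw [← R.e_mk, base, R.e.apply_eq_iff_eq, eq_comm, QuotientGroup.eq]
  simp

theorem transitive (i : Fin n) : ∃ g, R.φ g R.base = i := by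
  obtain ⟨g, hg⟩ := QuotientGroup.mk_surjective (R.e.symm i)
  exact ⟨g, by rw [← R.e_mk, hg]; simp⟩

end CosetRep

/-- A table with a spanning tree and an upper bound for the index gives an identification of the cosets. -/
noncomputable def cosetRepOfTable {α : Type*} [DecidableEq α] {rels : Set (FreeGroup α)}
    {t : Tbl} {code : α → ℕ} (h : IsRep rels t code) (subs : Set (FreeGroup α))
    (hn : 0 < t.n)
    (hsub : ∀ s ∈ subs, walk t.T (encW code t.inv s) 0 = 0)
    (par lt : ℕ → ℕ)
    (htree : ∀ i, i < t.n → 0 < i → par i < i ∧ lt i < t.ng ∧ t.T (par i) (lt i) = i ∧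
      ∃ x, lt i = code x ∨ lt i = t.inv (code x))
    (hupper : ((Subgroup.closure subs).map (PresentedGroup.mk rels)).index ≠ 0 ∧
      ((Subgroup.closure subs).map (PresentedGroup.mk rels)).index ≤ t.n) :
    CosetRep ((Subgroup.closure subs).map (PresentedGroup.mk rels)) t.n := by
  classical
  set H := (Subgroup.closure subs).map (PresentedGroup.mk rels) with hH
  let p0 : Fin t.n := ⟨0, hn⟩
  have hfix : ∀ g ∈ H, h.φ g p0 = p0 := by
    intro g hg
    obtain ⟨s, hs, rfl⟩ := hg
    -- the stabiliser of the base point contains the generators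
    induction hs using Subgroup.closure_induction with
    | mem s hs =>
      have h1 := h.φ_mk_symm_val s p0
      rw [hsub s hs] at h1
      have h2 : (h.φ (PresentedGroup.mk rels s))⁻¹ p0 = p0 := Fin.ext h1
      have h3 := congrArg (h.φ (PresentedGroup.mk rels s)) h2
      simpa using h3.symm
    | one => simp
    | mul a b _ _ ha hb =>
      rw [map_mul, map_mul, Equiv.Perm.mul_apply, hb, ha]
    | inv a _ ha =>
      rw [map_inv, map_inv, Equiv.Perm.inv_eq_iff_eq, ha]
  have htrans : ∀ i : ℕ, ∀ hi : i < t.n, ∃ g, h.φ g p0 = ⟨i, hi⟩ := by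
    intro i
    induction i using Nat.strong_induction_on with
    | _ i ih =>
      intro hi
      rcases Nat.eq_zero_or_pos i with rfl | hi0
      · exact ⟨1, rfl⟩
      · obtain ⟨h1, h2, h3, h4⟩ := htree i hi hi0
        obtain ⟨g, hg⟩ := ih (par i) h1 (lt_trans h1 hi)
        obtain ⟨k, hk⟩ := h.perm_mem_range (Nat.lt_of_lt_of_le h2 le_rfl) h4
        refine ⟨k⁻¹ * g, ?_⟩
        rw [map_mul, map_inv, hk, Equiv.Perm.mul_apply, hg]
        apply Fin.ext
        rw [t.perm_symm_val h2]
        exact h3
  have hwd : ∀ q : PresentedGroup rels ⧸ H, ∀ g : PresentedGroup rels, (g : PresentedGroup rels ⧸ H) = q →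
      h.φ g p0 = h.φ q.out p0 := by
    intro q g hg
    have : g⁻¹ * q.out ∈ H := by
      rw [← QuotientGroup.eq, hg, QuotientGroup.out_eq']
    have h2 := hfix _ this
    rw [map_mul, map_inv, Equiv.Perm.mul_apply, Equiv.Perm.inv_eq_iff_eq] at h2
    exact h2.symm
  let f : PresentedGroup rels ⧸ H → Fin t.n := fun q => h.φ q.out p0
  have hf : ∀ g : PresentedGroup rels, f (g : PresentedGroup rels ⧸ H) = h.φ g p0 :=
    fun g => (hwd _ g rfl).symm
  have hsurj : Function.Surjective f := by
    intro i
    obtain ⟨g, hg⟩ := htrans i i.2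
    exact ⟨(g : PresentedGroup rels ⧸ H), by rw [hf, hg]⟩
  have hfin : Finite (PresentedGroup rels ⧸ H) := Nat.finite_of_card_ne_zero hupper.1
  have hbij : Function.Bijective f := by
    apply hsurj.bijective_of_nat_card_le
    show H.index ≤ _
    simpa using hupper.2
  refine ⟨h.φ, Equiv.ofBijective f hbij, ?_⟩
  intro g q
  obtain ⟨k, rfl⟩ := QuotientGroup.mk_surjective q
  show f (g • (k : PresentedGroup rels ⧸ H)) = h.φ g (f k)
  rw [MulAction.Quotient.smul_coe, hf, hf, smul_eq_mul, map_mul, Equiv.Perm.mul_apply]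

end Cfsg.Agent.Lib.TC
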