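/-
A finite presentation with its letters, and the consequences of a coset enumeration certificate and a coset table for
a subgroup generated by words.
-/
import Cfsg.Agent.Lib.TC.Pres

set_option autoImplicit false

namespace Cfsg.Agent.Lib.TC

open scoped Pointwise

/-- A word is of the form `[g, g⁻¹]`. -/
def isPseudo (ng : ℕ) (inv : ℕ → ℕ) (w : List ℕ) : Bool :=
  match w with
  | [g, h] => decide (g < ng) && decide (h = inv g)
  | _ => false

/-- A finite presentation with the numbering of its letters. -/
structure Sys (α : Type*) [DecidableEq α] where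
  /-- the relators -/
  rels : Set (FreeGroup α)
  /-- the letter of a generator -/
  code : α → ℕ
  /-- the inverse of a letter -/
  inv : ℕ → ℕ
  /-- the number of letters -/
  ng : ℕ
  /-- the generator of a letter -/
  dec : ℕ → α
  /-- whether a letter is the inverse of a generator -/
  neg : ℕ → Bool
  hcode : ∀ x, code x < ng
  hdec : ∀ x, dec (code x) = x ∧ neg (code x) = false
  hinvc : ∀ x, inv (code x) < ng ∧ dec (inv (code x)) = x ∧
    (neg (inv (code x)) = true ∨ (inv (code x) = code x ∧ FreeGroup.of x * FreeGroup.of x ∈ rels))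
  hinv : ∀ g, g < ng → inv g < ng ∧ inv (inv g) = g ∧ (g = code (dec g) ∨ g = inv (code (dec g)))

namespace Sys

variable {α : Type*} [DecidableEq α] (S : Sys α)

/-- The value of a letter in the presented group. -/
noncomputable def v (g : ℕ) : PresentedGroup S.rels :=
  if g < S.ng then
    (if S.neg g = true then (PresentedGroup.of (S.dec g))⁻¹ else PresentedGroup.of (S.dec g))
  else 1

theorem v_ge {g : ℕ} (hg : S.ng ≤ g) : S.v g = 1 := by
  simp [v, Nat.not_lt.mpr hg]

theorem v_code (x : α) : S.v (S.code x) = PresentedGroup.of x := by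
  simp [v, S.hcode x, (S.hdec x).1, (S.hdec x).2]

theorem of_sq_of_mem {x : α} (h : FreeGroup.of x * FreeGroup.of x ∈ S.rels) :
    (PresentedGroup.of x : PresentedGroup S.rels)⁻¹ = PresentedGroup.of x := by
  have h1 := PresentedGroup.one_of_mem h
  rw [map_mul] at h1
  exact inv_eq_of_mul_eq_one_left h1

theorem v_inv_code (x : α) : S.v (S.inv (S.code x)) = (PresentedGroup.of x)⁻¹ := by
  obtain ⟨h1, h2, h3⟩ := S.hinvc x
  rcases h3 with h3 | ⟨h3, h4⟩
  · simp [v, h1, h2, h3]
  · rw [h3, v_code, S.of_sq_of_mem h4]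

theorem v_inv_code' (x : α) : S.v (S.inv (S.code x)) = (S.v (S.code x))⁻¹ := by
  rw [v_inv_code, v_code]

theorem v_inv {g : ℕ} (hg : g < S.ng) : S.v (S.inv g) = (S.v g)⁻¹ := by
  obtain ⟨_, _, h3⟩ := S.hinv g hg
  rcases h3 with h3 | h3
  · rw [h3, v_inv_code']
  · have h4 : S.inv (S.inv (S.code (S.dec g))) = S.code (S.dec g) := (S.hinv _ (S.hcode _)).2.1
    rw [h3, h4, v_inv_code', inv_inv]

theorem lift_v_eq (r : FreeGroup α) :
    FreeGroup.lift (fun x => S.v (S.code x)) r = PresentedGroup.mk S.rels r := by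
  have : (FreeGroup.lift fun x => S.v (S.code x)) = PresentedGroup.mk S.rels := by
    ext x
    simp [v_code, PresentedGroup.of]
  rw [this]

theorem evalWord_encW (r : FreeGroup α) :
    evalWord S.v (encW S.code S.inv r) = PresentedGroup.mk S.rels r := by
  rw [← lift_eq_evalWord S.code S.inv S.v S.v_inv_code' r, lift_v_eq]

theorem closure_eq_top :
    Subgroup.closure (Set.range fun x => S.v (S.code x)) = ⊤ := by
  have : (fun x => S.v (S.code x)) = (PresentedGroup.of : α → PresentedGroup S.rels) := by
    funext x; exact S.v_code x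
  rw [this]
  exact PresentedGroup.closure_range_of _

theorem evalWord_isPseudo {w : List ℕ} (h : isPseudo S.ng S.inv w = true) : evalWord S.v w = 1 := by
  match w, h with
  | [g, k], h =>
    simp only [isPseudo, Bool.and_eq_true, decide_eq_true_eq] at h
    obtain ⟨h1, rfl⟩ := h
    simp [S.v_inv h1]

/-- The upper bound for an index from a certificate. The list `words` holds the words of the certificate: first those
that are trivial in the group, then the generators of the subgroup. -/
theorem index_le (subs : Set (FreeGroup α)) (c : Cert) (words : List (List ℕ))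
    (hW : c.W = wordAt words)
    (hep : c.ep = S.ng) (hsz : c.sz = S.ng + 1)
    (hnW : c.nW = words.length) (hnrel : c.nrel ≤ c.nW)
    (hletters : ∀ w ∈ words, ∀ g ∈ w, g < c.sz)
    (hrel : ∀ w ∈ words.take c.nrel, isPseudo S.ng S.inv w = true ∨ ∃ r ∈ S.rels, encW S.code S.inv r = w)
    (hsub : ∀ w ∈ words.drop c.nrel, ∃ s ∈ subs, encW S.code S.inv s = w)
    (hE : ∀ k, c.K ≤ k → c.E k = 0)
    (hcheck : ∀ k, k < c.K → c.chk k = true)
    (n : ℕ) (nm : ℕ → ℕ) (T : ℕ → ℕ → ℕ) (hn : 0 < n) (hnm0 : nm 0 = 0)
    (hfin : ∀ i, i < n → ∀ g, g < S.ng → T i g < n ∧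
      wA c.sz c.ep c.b c.m c.E 0 c.fuel [g] (nm i) (nm (T i g)) = true) :
    ((Subgroup.closure subs).map (PresentedGroup.mk S.rels)).index ≠ 0 ∧
      ((Subgroup.closure subs).map (PresentedGroup.mk S.rels)).index ≤ n := by
  refine index_le_of_cert _ S.v c S.code S.inv S.closure_eq_top S.v_inv_code' (by omega)
    (by rw [hep]; exact S.v_ge le_rfl) hE ?_ ?_ hnrel ?_ hcheck n S.ng nm T hn hnm0 (by omega) S.hcode
    (fun x => (S.hinvc x).1) hfin
  · intro j hj h hh
    rw [hW, wordAt_eq_getD] at hh
    rw [hnW] at hj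
    rw [List.getD_eq_getElem _ _ hj] at hh
    exact hletters _ (List.getElem_mem hj) h hh
  · intro j hj
    rw [hW, wordAt_eq_getD]
    have hj' : j < words.length := by omega
    rw [List.getD_eq_getElem _ _ hj']
    have hmem : words[j] ∈ words.take c.nrel := by
      rw [List.mem_take_iff_getElem]
      exact ⟨j, by omega, rfl⟩
    rcases hrel _ hmem with h1 | ⟨r, hr, h2⟩
    · exact S.evalWord_isPseudo h1
    · rw [← h2, evalWord_encW]
      exact PresentedGroup.one_of_mem hr
  · intro j hj hj'
    rw [hW, wordAt_eq_getD]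
    have hj'' : j < words.length := by omega
    rw [List.getD_eq_getElem _ _ hj'']
    have hmem : words[j] ∈ words.drop c.nrel := by
      rw [List.mem_drop_iff_getElem]
      exact ⟨j - c.nrel, by omega, by simp [Nat.add_sub_cancel' hj']⟩
    obtain ⟨s, hs, h2⟩ := hsub _ hmem
    rw [← h2, evalWord_encW]
    exact ⟨s, Subgroup.subset_closure hs, rfl⟩

end Sys

end Cfsg.Agent.Lib.TC
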