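/-
From a table and a certificate to the permutation representation of a presented group on the cosets of a subgroup,
with the orbits of that subgroup given by intervals of points.
-/
import Cfsg.Agent.Lib.TC.Sys

set_option autoImplicit false

namespace Cfsg.Agent.Lib.TC

open scoped Pointwise

/-- Does a list of words all walk to their start? -/
noncomputable def relsOk (T : ℕ → ℕ → ℕ) (R : List (List ℕ)) (i : ℕ) : Bool :=
  List.rec (motive := fun _ => Bool) true
    (fun w _ ih => bif' (Nat.beq (walk T w i) i) ih false) R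

theorem relsOk_spec {T : ℕ → ℕ → ℕ} {i : ℕ} : ∀ {R : List (List ℕ)}, relsOk T R i = true →
    ∀ w ∈ R, walk T w i = i := by
  intro R
  induction R with
  | nil => intro _ w hw; simp at hw
  | cons a R ih =>
    intro h w hw
    have h' : (Bool.rec false (relsOk T R i) (Nat.beq (walk T a i) i) : Bool) = true := h
    cases h2 : Nat.beq (walk T a i) i with
    | false => rw [h2] at h'; exact absurd h' (by simp)
    | true =>
      rw [h2] at h'
      rcases List.mem_cons.1 hw with rfl | hw
      · exact Nat.eq_of_beq_eq_true h2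
      · exact ih h' w hw

/-- The last letter moved to the front. -/
def rotR (w : List ℕ) : List ℕ :=
  match w.reverse with
  | [] => []
  | g :: u => g :: u.reverse

theorem walk_of_rotR (t : Tbl) {w : List ℕ} (hw : ∀ g ∈ w, g < t.ng)
    (h : ∀ i, i < t.n → walk t.T (rotR w) i = i) :
    ∀ i, i < t.n → walk t.T w i = i := by
  intro i hi
  unfold rotR at h
  rcases hr : w.reverse with _ | ⟨g, u⟩
  · have : w = [] := by simpa using hr
    rw [this]; rfl
  · have hw' : w = u.reverse ++ [g] := by
      rw [← List.reverse_reverse w, hr]; simp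
    rw [hr] at h
    have hg : g < t.ng := hw g (by rw [hw']; simp)
    obtain ⟨h1, h2⟩ := t.hinv g hg
    have hj := t.hT i hi _ h1
    have h3 := h _ hj
    simp only [walk_cons] at h3
    have h4 := t.hTT i hi _ h1
    rw [h2] at h4
    rw [h4] at h3
    rw [hw', walk_append, h3]
    simpa using h4

/-- Relators are checked in a reduced list. -/
theorem rels_of_reduced (t : Tbl) (R L : List (List ℕ))
    (hR : ∀ w ∈ R, ∀ i, i < t.n → walk t.T w i = i)
    (hlet : ∀ w ∈ L, ∀ g ∈ w, g < t.ng)
    (hL : ∀ w ∈ L, w ∈ R ∨ rotR w ∈ R ∨ isPseudo t.ng t.inv w = true) :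
    ∀ w ∈ L, ∀ i, i < t.n → walk t.T w i = i := by
  intro w hw i hi
  rcases hL w hw with h | h | h
  · exact hR w h i hi
  · exact walk_of_rotR t (hlet w hw) (hR _ h) i hi
  · match w, h with
    | [g, k], h =>
      simp only [isPseudo, Bool.and_eq_true, decide_eq_true_eq] at h
      obtain ⟨h1, rfl⟩ := h
      exact t.hTT i hi g h1

namespace Sys

variable {α : Type*} [DecidableEq α] (S : Sys α)

/-- The data of a coset table: the checks on all points, and what they mean. -/
structure TableData where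
  /-- number of points -/
  n : ℕ
  /-- the table -/
  T : ℕ → ℕ → ℕ
  /-- reduced list of relators -/
  R : List (List ℕ)
  hn : 0 < n
  hT : ∀ i, i < n → ∀ g, g < S.ng → T i g < n
  hTT : ∀ i, i < n → ∀ g, g < S.ng → T (T i g) (S.inv g) = i
  hR : ∀ w ∈ R, ∀ i, i < n → walk T w i = i
  hL : ∀ r ∈ S.rels, encW S.code S.inv r ∈ R ∨ rotR (encW S.code S.inv r) ∈ R ∨
    isPseudo S.ng S.inv (encW S.code S.inv r) = true

variable {S} (D : S.TableData)

/-- The table of table data. -/
def TableData.tbl : Tbl where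
  n := D.n
  ng := S.ng
  T := D.T
  inv := S.inv
  hT := D.hT
  hinv := fun g hg => ⟨(S.hinv g hg).1, (S.hinv g hg).2.1⟩
  hTT := D.hTT

theorem encW_letters (r : FreeGroup α) : ∀ g ∈ encW S.code S.inv r, g < S.ng := by
  intro g hg
  simp only [encW, List.mem_map] at hg
  obtain ⟨p, _, rfl⟩ := hg
  split_ifs
  · exact S.hcode _
  · exact (S.hinvc _).1

theorem TableData.isRep : IsRep S.rels D.tbl S.code where
  hcode := S.hcode
  hrels := by
    intro r hr i hi
    rcases D.hL r hr with h | h | h
    · exact D.hR _ h i hi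
    · exact walk_of_rotR D.tbl (S.encW_letters r) (fun j hj => D.hR _ h j hj) i hi
    · show walk D.T (encW S.code S.inv r) i = i
      generalize encW S.code S.inv r = w at h
      match w, h with
      | [g, k], h =>
        simp only [isPseudo, Bool.and_eq_true, decide_eq_true_eq] at h
        obtain ⟨h1, rfl⟩ := h
        exact D.hTT i hi g h1

/-- The representation of the group on the points of the table. -/
noncomputable def TableData.φ : PresentedGroup S.rels →* Equiv.Perm (Fin D.n) :=
  D.isRep.φ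

theorem TableData.φ_code (x : α) : D.φ (PresentedGroup.of x) = D.tbl.perm (S.code x) :=
  D.isRep.φ_of x

theorem TableData.φ_v {g : ℕ} (hg : g < S.ng) : D.φ (S.v g) = D.tbl.perm g := by
  rcases (S.hinv g hg).2.2 with h | h
  · rw [h, S.v_code, D.φ_code]
  · rw [h, S.v_inv_code, map_inv, D.φ_code]
    exact (D.tbl.perm_inv (S.hcode _)).symm

theorem TableData.φ_eval {w : List ℕ} (hw : ∀ g ∈ w, g < S.ng) :
    D.φ (evalWord S.v w) = evalWord D.tbl.perm w := by
  rw [map_evalWord]
  induction w with
  | nil => rfl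
  | cons g w ih =>
    rw [evalWord_cons, evalWord_cons, D.φ_v (hw g (by simp)), ih (fun a ha => hw a (by simp [ha]))]
    rfl

theorem TableData.walk_eq {w : List ℕ} (hw : ∀ g ∈ w, g < S.ng) (i : Fin D.n) :
    ((D.φ (evalWord S.v w))⁻¹ i).val = walk D.T w i := by
  rw [D.φ_eval hw]
  exact D.tbl.evalWord_symm_val w hw i

/-- Points moved by a word: the image of `i` under the inverse of the value of a word. -/
theorem TableData.apply_of_walk {w : List ℕ} (hw : ∀ g ∈ w, g < S.ng) {i j : Fin D.n}
    (h : walk D.T w i = j) : D.φ (evalWord S.v w)⁻¹ i = j := by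
  apply Fin.ext
  rw [map_inv]
  rw [D.walk_eq hw]
  exact h

end Sys

/-- A subgroup given by words, and the correspondence with lists of coded words. -/
structure SubWords {α : Type*} [DecidableEq α] (S : Sys α) (subs : Set (FreeGroup α)) where
  /-- the words -/
  W : List (List ℕ)
  h1 : ∀ s ∈ subs, encW S.code S.inv s ∈ W
  h2 : ∀ w ∈ W, ∃ s ∈ subs, encW S.code S.inv s = w

namespace Sys

variable {α : Type*} [DecidableEq α] {S : Sys α} {subs : Set (FreeGroup α)} (D : S.TableData) (A : SubWords S subs)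

/-- The subgroup of a presented group generated by given words. -/
abbrev subOf (S : Sys α) (subs : Set (FreeGroup α)) : Subgroup (PresentedGroup S.rels) :=
  (Subgroup.closure subs).map (PresentedGroup.mk S.rels)

theorem eval_mem_subOf {w : List ℕ} (hw : ∃ s ∈ subs, encW S.code S.inv s = w) :
    evalWord S.v w ∈ subOf S subs := by
  obtain ⟨s, hs, rfl⟩ := hw
  rw [S.evalWord_encW]
  exact ⟨s, Subgroup.subset_closure hs, rfl⟩

/-- What a subgroup does to the points, when its words preserve a property of points. -/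
theorem subOf_preserves (P : Fin D.n → Prop)
    (hP : ∀ s ∈ subs, ∀ i : Fin D.n, P i → P ((D.φ (PresentedGroup.mk S.rels s))⁻¹ i)) :
    ∀ h ∈ subOf S subs, ∀ i, P i → P (D.φ h i) := by
  classical
  -- finite permutation groups: an invariant subset under `k⁻¹` is also invariant under `k`
  have hfin : ∀ k : Equiv.Perm (Fin D.n), (∀ i, P i → P (k⁻¹ i)) → ∀ i, P i → P (k i) := by
    intro k hk i hi
    have h1 : k⁻¹ ^ (orderOf k⁻¹ - 1) = k := by
      have h2 : 0 < orderOf k⁻¹ := orderOf_pos _
      have h3 : k⁻¹ ^ (orderOf k⁻¹ - 1) * k⁻¹ = 1 := by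
        rw [← pow_succ, Nat.sub_add_cancel h2, pow_orderOf_eq_one]
      exact mul_inv_eq_one.mp h3
    rw [← h1]
    generalize orderOf k⁻¹ - 1 = m
    induction m with
    | zero => simpa using hi
    | succ m ih =>
      rw [pow_succ', Equiv.Perm.mul_apply]
      exact hk _ ih
  rintro _ ⟨s, hs, rfl⟩
  induction hs using Subgroup.closure_induction with
  | mem s hs =>
    intro i hi
    exact hfin _ (hP s hs) i hi
  | one => intro i hi; simpa using hi
  | mul a b _ _ ha hb =>
    intro i hi
    rw [map_mul, map_mul, Equiv.Perm.mul_apply]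
    exact ha _ (hb _ hi)
  | inv a _ ha =>
    intro i hi
    rw [map_inv, map_inv]
    have h1 := hfin ((D.φ (PresentedGroup.mk S.rels a))⁻¹) (by
      intro j hj
      rw [inv_inv]
      exact ha j hj)
    exact h1 i hi

/-- The stabiliser of the base point contains the subgroup, when its words fix the base point. -/
theorem subOf_fix (hn : 0 < D.n)
    (h0 : ∀ s ∈ subs, walk D.T (encW S.code S.inv s) 0 = 0) :
    ∀ h ∈ subOf S subs, D.φ h ⟨0, hn⟩ = ⟨0, hn⟩ := by
  intro h hh
  refine subOf_preserves D (fun i => i = ⟨0, hn⟩) ?_ h hh _ rfl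
  rintro s hs i rfl
  apply Fin.ext
  have h1 := D.walk_eq (S.encW_letters s) ⟨0, hn⟩
  rw [S.evalWord_encW, h0 s hs] at h1
  exact h1

end Sys

/-- The data of the cosets of a subgroup generated by words in a presented group. -/
noncomputable def Sys.cosetRep {α : Type*} [DecidableEq α] {S : Sys α} {subs : Set (FreeGroup α)}
    (D : S.TableData)
    (h0 : ∀ s ∈ subs, walk D.T (encW S.code S.inv s) 0 = 0)
    (htrans : ∀ i : Fin D.n, ∃ g, D.φ g ⟨0, D.hn⟩ = i)
    (hupper : (Sys.subOf S subs).index ≠ 0 ∧ (Sys.subOf S subs).index ≤ D.n) :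
    CosetRep (Sys.subOf S subs) D.n := by
  classical
  set H := Sys.subOf S subs with hH
  let p0 : Fin D.n := ⟨0, D.hn⟩
  have hfix : ∀ g ∈ H, D.φ g p0 = p0 := Sys.subOf_fix D D.hn h0
  have hwd : ∀ q : PresentedGroup S.rels ⧸ H, ∀ g : PresentedGroup S.rels, (g : PresentedGroup S.rels ⧸ H) = q →
      D.φ g p0 = D.φ q.out p0 := by
    intro q g hg
    have : g⁻¹ * q.out ∈ H := by
      rw [← QuotientGroup.eq, hg, QuotientGroup.out_eq']
    have h2 := hfix _ this
    rw [map_mul, map_inv, Equiv.Perm.mul_apply, Equiv.Perm.inv_eq_iff_eq] at h2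
    exact h2.symm
  let f : PresentedGroup S.rels ⧸ H → Fin D.n := fun q => D.φ q.out p0
  have hf : ∀ g : PresentedGroup S.rels, f (g : PresentedGroup S.rels ⧸ H) = D.φ g p0 :=
    fun g => (hwd _ g rfl).symm
  have hsurj : Function.Surjective f := by
    intro i
    obtain ⟨g, hg⟩ := htrans i
    exact ⟨(g : PresentedGroup S.rels ⧸ H), by rw [hf, hg]⟩
  have hfin : Finite (PresentedGroup S.rels ⧸ H) := Nat.finite_of_card_ne_zero hupper.1
  have hbij : Function.Bijective f := by
    apply hsurj.bijective_of_nat_card_le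
    show H.index ≤ _
    simpa using hupper.2
  refine ⟨D.φ, Equiv.ofBijective f hbij, ?_⟩
  intro g q
  obtain ⟨k, rfl⟩ := QuotientGroup.mk_surjective q
  show f (g • (k : PresentedGroup S.rels ⧸ H)) = D.φ g (f k)
  rw [MulAction.Quotient.smul_coe, hf, hf, smul_eq_mul, map_mul, Equiv.Perm.mul_apply]

/-- The orbits of a subgroup on its cosets from an interval of points. -/
theorem CosetRep.orbit_eq {G : Type*} [Group G] {H : Subgroup G} {n : ℕ} (R : CosetRep H n)
    (P : Fin n → Prop) (r : Fin n)
    (hr : P r) (hinv : ∀ h ∈ H, ∀ i, P i → P (R.φ h i))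
    (htr : ∀ i, P i → ∃ h ∈ H, R.φ h r = i) :
    MulAction.orbit H (R.e.symm r) = R.e ⁻¹' {i | P i} := by
  ext q
  constructor
  · rintro ⟨⟨h, hh⟩, rfl⟩
    show P (R.e (h • R.e.symm r))
    rw [R.e_smul, Equiv.apply_symm_apply]
    exact hinv h hh r hr
  · intro hq
    obtain ⟨h, hh, h1⟩ := htr _ hq
    refine ⟨⟨h, hh⟩, ?_⟩
    show h • R.e.symm r = q
    apply R.e.injective
    rw [R.e_smul, Equiv.apply_symm_apply, h1]

theorem CosetRep.orbit_ncard {G : Type*} [Group G] {H : Subgroup G} {n : ℕ} (R : CosetRep H n)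
    (lo hi : ℕ) (hlh : lo < hi) (hhi : hi ≤ n)
    (hinv : ∀ h ∈ H, ∀ i : Fin n, (lo ≤ i.val ∧ i.val < hi) → (lo ≤ (R.φ h i).val ∧ (R.φ h i).val < hi))
    (htr : ∀ i : Fin n, (lo ≤ i.val ∧ i.val < hi) → ∃ h ∈ H, R.φ h ⟨lo, by omega⟩ = i) :
    (MulAction.orbit H (R.e.symm ⟨lo, by omega⟩)).ncard = hi - lo := by
  classical
  rw [R.orbit_eq (fun i => lo ≤ i.val ∧ i.val < hi) ⟨lo, by omega⟩ ⟨le_rfl, hlh⟩ hinv htr]
  have h1 : (R.e ⁻¹' {i : Fin n | lo ≤ i.val ∧ i.val < hi}) = R.e.symm '' {i : Fin n | lo ≤ i.val ∧ i.val < hi} := by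
    ext q
    simp [Set.mem_image_equiv]
  rw [h1, Set.ncard_image_of_injective _ R.e.symm.injective]
  have h2 : {i : Fin n | lo ≤ i.val ∧ i.val < hi} =
      ((Finset.Ico lo hi).attachFin (by
        intro m hm
        have := Finset.mem_Ico.1 hm
        omega) : Finset (Fin n)) := by
    ext i
    simp
  rw [h2, Set.ncard_coe_finset, Finset.card_attachFin, Nat.card_Ico]

end Cfsg.Agent.Lib.TC
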