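/-
The checks on the points of a coset table, as Boolean functions for the kernel to evaluate, and what they give.
-/
import Cfsg.Agent.Lib.TC.Pack

set_option autoImplicit false

namespace Cfsg.Agent.Lib.TC

open scoped Pointwise

theorem bif'_spec {c a b : Bool} (h : bif' c a b = true) (hb : b = false) : c = true ∧ a = true := by
  cases c with
  | false => have : b = true := h; rw [hb] at this; exact absurd this (by simp)
  | true => exact ⟨rfl, h⟩

/-- Five checks. -/
noncomputable def and5 (p1 p2 p3 p4 p5 : ℕ → Bool) (i : ℕ) : Bool :=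
  bif' (p1 i) (bif' (p2 i) (bif' (p3 i) (bif' (p4 i) (p5 i) false) false) false) false

theorem and5_spec {p1 p2 p3 p4 p5 : ℕ → Bool} {i : ℕ} (h : and5 p1 p2 p3 p4 p5 i = true) :
    p1 i = true ∧ p2 i = true ∧ p3 i = true ∧ p4 i = true ∧ p5 i = true := by
  obtain ⟨h1, h⟩ := bif'_spec h rfl
  obtain ⟨h2, h⟩ := bif'_spec h rfl
  obtain ⟨h3, h⟩ := bif'_spec h rfl
  obtain ⟨h4, h⟩ := bif'_spec h rfl
  exact ⟨h1, h2, h3, h4, h⟩

/-- The check that a table is closed at a point, and its letters are invertible there. -/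
noncomputable def ptTable (n ng : ℕ) (T : ℕ → ℕ → ℕ) (inv : ℕ → ℕ) (i : ℕ) : Bool :=
  allFrom (fun g => bif' (Nat.blt (T i g) n) (Nat.beq (T (T i g) (inv g)) i) false) 0 ng

theorem ptTable_spec {n ng : ℕ} {T : ℕ → ℕ → ℕ} {inv : ℕ → ℕ} {i : ℕ} (h : ptTable n ng T inv i = true) :
    ∀ g, g < ng → T i g < n ∧ T (T i g) (inv g) = i := by
  intro g hg
  have h1 := allFrom_spec _ 0 ng h g hg
  rw [Nat.zero_add] at h1
  obtain ⟨h2, h3⟩ := bif'_spec h1 rfl
  exact ⟨nat_blt_true h2, Nat.eq_of_beq_eq_true h3⟩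

/-- The final check of a certificate at a point. -/
noncomputable def ptFinal (ng : ℕ) (T : ℕ → ℕ → ℕ) (nm : ℕ → ℕ) (sz ep b m : ℕ) (E : ℕ → ℕ) (fuel : ℕ)
    (i : ℕ) : Bool :=
  allFrom (fun g => wA sz ep b m E 0 fuel [g] (nm i) (nm (T i g))) 0 ng

theorem ptFinal_spec {ng : ℕ} {T : ℕ → ℕ → ℕ} {nm : ℕ → ℕ} {sz ep b m : ℕ} {E : ℕ → ℕ} {fuel : ℕ} {i : ℕ}
    (h : ptFinal ng T nm sz ep b m E fuel i = true) :
    ∀ g, g < ng → wA sz ep b m E 0 fuel [g] (nm i) (nm (T i g)) = true := by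
  intro g hg
  have h1 := allFrom_spec _ 0 ng h g hg
  rwa [Nat.zero_add] at h1

/-- Membership of an interval. -/
noncomputable def inIv (iv : ℕ × ℕ) (x : ℕ) : Bool :=
  bif' (Nat.ble iv.1 x) (Nat.blt x iv.2) false

theorem inIv_iff {iv : ℕ × ℕ} {x : ℕ} : inIv iv x = true ↔ iv.1 ≤ x ∧ x < iv.2 := by
  constructor
  · intro h
    obtain ⟨h1, h2⟩ := bif'_spec h rfl
    exact ⟨Nat.le_of_ble_eq_true h1, nat_blt_true h2⟩
  · rintro ⟨h1, h2⟩
    have h3 : Nat.ble iv.1 x = true := Nat.ble_eq_true_of_le h1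
    have h4 : Nat.blt x iv.2 = true := by simpa [Nat.blt] using Nat.ble_eq_true_of_le h2
    unfold inIv bif'
    rw [h3, h4]

/-- For all the members of a list. -/
noncomputable def allL {β : Type} (f : β → Bool) (l : List β) : Bool :=
  List.rec (motive := fun _ => Bool) true (fun a _ ih => bif' (f a) ih false) l

theorem allL_spec {β : Type} {f : β → Bool} {l : List β} (h : allL f l = true) : ∀ a ∈ l, f a = true := by
  induction l with
  | nil => intro a ha; simp at ha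
  | cons x l ih =>
    intro a ha
    obtain ⟨h1, h2⟩ := bif'_spec (c := f x) (a := allL f l) (b := false) h rfl
    rcases List.mem_cons.1 ha with rfl | ha
    · exact h1
    · exact ih h2 a ha

/-- The check of the spanning tree at a point: the point comes from a smaller one along a word, and along a word of
the subgroup, from the same interval, except when it starts an interval. -/
noncomputable def ptTree (T : ℕ → ℕ → ℕ) (WL : ℕ → List ℕ) (nsub nW : ℕ) (par gw : ℕ → ℕ) (ivs : List (ℕ × ℕ)) (i : ℕ) :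
    Bool :=
  Bool.rec
    (bif' (Nat.blt (par i) i)
      (bif' (Nat.blt (gw i) nW)
        (bif' (Nat.beq (walk T (WL (gw i)) (par i)) i)
          (allL (fun iv => bif' (inIv iv i)
            (bif' (Nat.beq i iv.1) true (bif' (Nat.blt (gw i) nsub) (Nat.ble iv.1 (par i)) false)) true) ivs)
          false) false) false)
    true (Nat.beq i 0)

theorem ptTree_spec {T : ℕ → ℕ → ℕ} {WL : ℕ → List ℕ} {nsub nW : ℕ} {par gw : ℕ → ℕ} {ivs : List (ℕ × ℕ)} {i : ℕ}
    (h : ptTree T WL nsub nW par gw ivs i = true) (hi : i ≠ 0) :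
    par i < i ∧ gw i < nW ∧ walk T (WL (gw i)) (par i) = i ∧
      ∀ iv ∈ ivs, iv.1 ≤ i ∧ i < iv.2 → i = iv.1 ∨ (gw i < nsub ∧ iv.1 ≤ par i) := by
  have h0 : Nat.beq i 0 = false := by
    cases hh : Nat.beq i 0 with
    | false => rfl
    | true => exact absurd (Nat.eq_of_beq_eq_true hh) hi
  unfold ptTree at h
  rw [h0] at h
  obtain ⟨h1, h⟩ := bif'_spec h rfl
  obtain ⟨h2, h⟩ := bif'_spec h rfl
  obtain ⟨h3, h⟩ := bif'_spec h rfl
  refine ⟨nat_blt_true h1, nat_blt_true h2, Nat.eq_of_beq_eq_true h3, ?_⟩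
  intro iv hiv hin
  have h4 := allL_spec h iv hiv
  have h5 : inIv iv i = true := inIv_iff.2 hin
  have h6 : (bif' (Nat.beq i iv.1) true (bif' (Nat.blt (gw i) nsub) (Nat.ble iv.1 (par i)) false)) = true := by
    simpa [bif', h5] using h4
  cases h7 : Nat.beq i iv.1 with
  | true => exact Or.inl (Nat.eq_of_beq_eq_true h7)
  | false =>
    right
    have h8 : bif' (Nat.blt (gw i) nsub) (Nat.ble iv.1 (par i)) false = true := by
      simpa [bif', h7] using h6
    obtain ⟨h9, h10⟩ := bif'_spec h8 rfl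
    exact ⟨nat_blt_true h9, Nat.le_of_ble_eq_true h10⟩

/-- The check that words preserve the intervals, at a point. -/
noncomputable def ptOrb (T : ℕ → ℕ → ℕ) (subW : List (List ℕ)) (ivs : List (ℕ × ℕ)) (i : ℕ) : Bool :=
  allL (fun iv => bif' (inIv iv i) (allL (fun w => inIv iv (walk T w i)) subW) true) ivs

theorem ptOrb_spec {T : ℕ → ℕ → ℕ} {subW : List (List ℕ)} {ivs : List (ℕ × ℕ)} {i : ℕ}
    (h : ptOrb T subW ivs i = true) :
    ∀ iv ∈ ivs, iv.1 ≤ i ∧ i < iv.2 → ∀ w ∈ subW, iv.1 ≤ walk T w i ∧ walk T w i < iv.2 := by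
  intro iv hiv hin w hw
  have h1 := allL_spec h iv hiv
  have h2 : inIv iv i = true := inIv_iff.2 hin
  have h3 : allL (fun w => inIv iv (walk T w i)) subW = true := by
    simpa [bif', h2] using h1
  exact inIv_iff.1 (allL_spec h3 w hw)

/-- The checks at a point. -/
noncomputable def ptAll (n : ℕ) (T : ℕ → ℕ → ℕ) (inv : ℕ → ℕ) (R : List (List ℕ))
    (ng : ℕ) (nm : ℕ → ℕ) (sz ep b m : ℕ) (E : ℕ → ℕ) (fuel : ℕ)
    (WL : ℕ → List ℕ) (nsub nW : ℕ) (par gw : ℕ → ℕ) (subW : List (List ℕ)) (ivs : List (ℕ × ℕ)) (i : ℕ) : Bool :=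
  and5 (ptTable n ng T inv) (relsOk T R) (ptFinal ng T nm sz ep b m E fuel)
    (ptTree T WL nsub nW par gw ivs) (ptOrb T subW ivs) i

namespace Sys

variable {α : Type*} [DecidableEq α] {S : Sys α}

/-- Everything about a coset table, checked. -/
structure Checked (S : Sys α) (subs : Set (FreeGroup α)) (c : Cert) where
  /-- the number of points -/
  n : ℕ
  /-- the table -/
  T : ℕ → ℕ → ℕ
  /-- a reduced list of relators -/
  R : List (List ℕ)
  /-- the words of the certificate -/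
  words : List (List ℕ)
  /-- names of points in the certificate -/
  nm : ℕ → ℕ
  /-- the coded generators of the subgroup -/
  A : SubWords S subs
  /-- words for the spanning tree: first those of the subgroup -/
  WL : ℕ → List ℕ
  nsub : ℕ
  nW : ℕ
  /-- the tree -/
  par : ℕ → ℕ
  gw : ℕ → ℕ
  /-- the intervals of orbits -/
  ivs : List (ℕ × ℕ)
  hF : ∀ i, i < n → ptAll n T S.inv R S.ng nm c.sz c.ep c.b c.m c.E c.fuel WL nsub nW par gw A.W ivs i = true
  hn : 0 < n
  hL : ∀ r ∈ S.rels, encW S.code S.inv r ∈ R ∨ rotR (encW S.code S.inv r) ∈ R ∨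
    isPseudo S.ng S.inv (encW S.code S.inv r) = true
  hW : c.W = wordAt words
  hep : c.ep = S.ng
  hsz : c.sz = S.ng + 1
  hnW : c.nW = words.length
  hnrel : c.nrel ≤ c.nW
  hletters : ∀ w ∈ words, ∀ g ∈ w, g < c.sz
  hrel : ∀ w ∈ words.take c.nrel, isPseudo S.ng S.inv w = true ∨ ∃ r ∈ S.rels, encW S.code S.inv r = w
  hsub : ∀ w ∈ words.drop c.nrel, w ∈ A.W
  hE : ∀ k, c.K ≤ k → c.E k = 0
  hcheck : ∀ k, k < c.K → c.chk k = true
  hnm0 : nm 0 = 0
  hWLs : ∀ j, j < nsub → WL j ∈ A.W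
  hWLl : ∀ j, j < nW → ∀ g ∈ WL j, g < S.ng
  h0 : relsOk T A.W 0 = true

namespace Checked

variable {subs : Set (FreeGroup α)} {c : Cert} (C : S.Checked subs c)

include C in
theorem parts (i : ℕ) (hi : i < C.n) :
    ptTable C.n S.ng C.T S.inv i = true ∧ relsOk C.T C.R i = true ∧
      ptFinal S.ng C.T C.nm c.sz c.ep c.b c.m c.E c.fuel i = true ∧
      ptTree C.T C.WL C.nsub C.nW C.par C.gw C.ivs i = true ∧ ptOrb C.T C.A.W C.ivs i = true :=
  and5_spec (C.hF i hi)

/-- The table data of checks. -/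
abbrev tableData : S.TableData where
  n := C.n
  T := C.T
  R := C.R
  hn := C.hn
  hT := fun i hi g hg => (ptTable_spec (C.parts i hi).1 g hg).1
  hTT := fun i hi g hg => (ptTable_spec (C.parts i hi).1 g hg).2
  hR := fun w hw i hi => relsOk_spec (C.parts i hi).2.1 w hw
  hL := C.hL

theorem upper : (subOf S subs).index ≠ 0 ∧ (subOf S subs).index ≤ C.n := by
  refine S.index_le subs c C.words C.hW C.hep C.hsz C.hnW C.hnrel C.hletters C.hrel ?_ C.hE C.hcheck C.n C.nm C.T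
    C.hn C.hnm0 ?_
  · intro w hw
    exact C.A.h2 w (C.hsub w hw)
  · intro i hi g hg
    exact ⟨(ptTable_spec (C.parts i hi).1 g hg).1, ptFinal_spec (C.parts i hi).2.2.1 g hg⟩

theorem fix0 : ∀ s ∈ subs, walk C.T (encW S.code S.inv s) 0 = 0 := by
  intro s hs
  exact relsOk_spec C.h0 _ (C.A.h1 s hs)

/-- The words of the tree fall in the group, and move points. -/
theorem tree_step (i : Fin C.n) (hi : i.val ≠ 0) :
    ∃ (hp : C.par i < C.n) (w : List ℕ), (∀ g ∈ w, g < S.ng) ∧ w = C.WL (C.gw i) ∧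
      C.tableData.φ (evalWord S.v w)⁻¹ ⟨C.par i, hp⟩ = i := by
  obtain ⟨h1, h2, h3, _⟩ := ptTree_spec (C.parts i i.2).2.2.2.1 hi
  have hp : C.par i < C.n := lt_trans h1 i.2
  refine ⟨hp, C.WL (C.gw i), C.hWLl _ h2, rfl, ?_⟩
  exact C.tableData.apply_of_walk (C.hWLl _ h2) (i := ⟨C.par i, hp⟩) (j := i) h3

theorem trans (i : Fin C.n) : ∃ g, C.tableData.φ g ⟨0, C.hn⟩ = i := by
  obtain ⟨i, hi⟩ := i
  induction i using Nat.strong_induction_on with
  | _ i ih =>
    by_cases h0 : i = 0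
    · subst h0; exact ⟨1, rfl⟩
    · obtain ⟨hp, w, _, _, h3⟩ := C.tree_step ⟨i, hi⟩ h0
      obtain ⟨h1, _⟩ := ptTree_spec (C.parts i hi).2.2.2.1 h0
      obtain ⟨g, hg⟩ := ih _ h1 hp
      refine ⟨(evalWord S.v w)⁻¹ * g, ?_⟩
      rw [map_mul, Equiv.Perm.mul_apply, hg, h3]

/-- The identification of cosets with the points of the table. -/
noncomputable def rep : CosetRep (subOf S subs) C.n :=
  Sys.cosetRep C.tableData C.fix0 C.trans C.upper

theorem rep_φ : C.rep.φ = C.tableData.φ := rfl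

theorem index_eq : (subOf S subs).index = C.n := C.rep.index_eq

theorem orbit_ncard (iv : ℕ × ℕ) (hiv : iv ∈ C.ivs) (h1 : iv.1 < iv.2) (h2 : iv.2 ≤ C.n) :
    (MulAction.orbit (subOf S subs) (C.rep.e.symm ⟨iv.1, by omega⟩)).ncard = iv.2 - iv.1 := by
  refine C.rep.orbit_ncard iv.1 iv.2 h1 h2 ?_ ?_
  · rw [rep_φ]
    refine subOf_preserves C.tableData (fun i => iv.1 ≤ i.val ∧ i.val < iv.2) ?_
    intro s hs i hi
    have h3 := ptOrb_spec (C.parts i i.2).2.2.2.2 iv hiv hi _ (C.A.h1 s hs)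
    have h4 := C.tableData.walk_eq (S.encW_letters s) i
    rw [S.evalWord_encW] at h4
    change iv.1 ≤ ((C.tableData.φ (PresentedGroup.mk S.rels s))⁻¹ i).val ∧
      ((C.tableData.φ (PresentedGroup.mk S.rels s))⁻¹ i).val < iv.2
    rw [h4]
    exact h3
  · rw [rep_φ]
    rintro ⟨i, hin⟩ ⟨h3, h4⟩
    dsimp only at h3 h4
    induction i using Nat.strong_induction_on with
    | _ i ih =>
      by_cases h0 : i = iv.1
      · subst h0
        exact ⟨1, one_mem _, rfl⟩
      · have hi0 : i ≠ 0 := by omega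
        obtain ⟨h5, h6, h7, h8⟩ := ptTree_spec (C.parts i hin).2.2.2.1 hi0
        rcases h8 iv hiv ⟨h3, h4⟩ with h9 | ⟨h9, h10⟩
        · exact absurd h9 h0
        · obtain ⟨hp, w, _, hw, hmove⟩ := C.tree_step ⟨i, hin⟩ hi0
          obtain ⟨g, hg, hgm⟩ := ih _ h5 hp h10 (by omega)
          have hmem : evalWord S.v w ∈ subOf S subs :=
            eval_mem_subOf (C.A.h2 w (by rw [hw]; exact C.hWLs _ h9))
          refine ⟨(evalWord S.v w)⁻¹ * g, mul_mem (inv_mem hmem) hg, ?_⟩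
          rw [map_mul, Equiv.Perm.mul_apply, hgm, hmove]

end Checked

end Sys

end Cfsg.Agent.Lib.TC
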