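/-
Upper bounds for the orders of subgroups generated by letters of a presentation, from certificates for the relative
indices along a chain.
-/
import Cfsg.Agent.Lib.TC.Check

set_option autoImplicit false

namespace Cfsg.Agent.Lib.TC

open scoped Pointwise

/-- The order of a subgroup from a relative index. -/
theorem card_eq_mul_relIndex {G : Type*} [Group G] {L K : Subgroup G} (h : L ≤ K) :
    Nat.card K = Nat.card L * L.relIndex K := by
  have h1 := Subgroup.card_mul_index (L.subgroupOf K)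
  have h2 : Nat.card (L.subgroupOf K) = Nat.card L :=
    Nat.card_congr (Subgroup.subgroupOfEquivOfLe h).toEquiv
  rw [h2] at h1
  exact h1.symm

/-- A step in a chain of upper bounds. -/
theorem card_le_step {G : Type*} [Group G] {L K : Subgroup G} (hle : L ≤ K) {n b : ℕ}
    (hi : L.relIndex K ≠ 0 ∧ L.relIndex K ≤ n) (hb : 0 < Nat.card L ∧ Nat.card L ≤ b) :
    0 < Nat.card K ∧ Nat.card K ≤ b * n := by
  rw [card_eq_mul_relIndex hle]
  exact ⟨Nat.mul_pos hb.1 (Nat.pos_of_ne_zero hi.1), Nat.mul_le_mul hb.2 hi.2⟩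

theorem card_bot_bound {G : Type*} [Group G] : 0 < Nat.card (⊥ : Subgroup G) ∧ Nat.card (⊥ : Subgroup G) ≤ 1 := by
  rw [Subgroup.card_bot]
  simp

/-- A table check for a chain step: closed, and the certificate confirms it. -/
noncomputable def ptFin2 (n ng : ℕ) (T : ℕ → ℕ → ℕ) (nm : ℕ → ℕ) (sz ep b m : ℕ) (E : ℕ → ℕ) (fuel : ℕ)
    (i : ℕ) : Bool :=
  allFrom (fun g => bif' (Nat.blt (T i g) n) (wA sz ep b m E 0 fuel [g] (nm i) (nm (T i g))) false) 0 ng

theorem ptFin2_spec {n ng : ℕ} {T : ℕ → ℕ → ℕ} {nm : ℕ → ℕ} {sz ep b m : ℕ} {E : ℕ → ℕ} {fuel : ℕ} {i : ℕ}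
    (h : ptFin2 n ng T nm sz ep b m E fuel i = true) :
    ∀ g, g < ng → T i g < n ∧ wA sz ep b m E 0 fuel [g] (nm i) (nm (T i g)) = true := by
  intro g hg
  have h1 := allFrom_spec _ 0 ng h g hg
  rw [Nat.zero_add] at h1
  obtain ⟨h2, h3⟩ := bif'_spec h1 rfl
  exact ⟨nat_blt_true h2, h3⟩

/-- The order of the whole group from a subgroup of finite index. -/
theorem card_top_le {G : Type*} [Group G] {L : Subgroup G} {n b : ℕ}
    (hi : L.index ≠ 0 ∧ L.index ≤ n) (hb : 0 < Nat.card L ∧ Nat.card L ≤ b) :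
    0 < Nat.card G ∧ Nat.card G ≤ b * n := by
  rw [← Subgroup.card_mul_index L]
  exact ⟨Nat.mul_pos hb.1 (Nat.pos_of_ne_zero hi.1), Nat.mul_le_mul hb.2 hi.2⟩

namespace Sys

variable {α : Type*} [DecidableEq α] (S : Sys α)

/-- The subgroup generated by the values of the letters `σ j`, `j < k`. -/
def letGrp (σ : ℕ → ℕ) (k : ℕ) : Subgroup (PresentedGroup S.rels) :=
  Subgroup.closure ((fun j => S.v (σ j)) '' {j | j < k})

/-- The value of a new letter in the subgroup of the letters. -/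
noncomputable def vSub (σ : ℕ → ℕ) (k : ℕ) (j : ℕ) : S.letGrp σ k :=
  if h : j < k then ⟨S.v (σ j), Subgroup.subset_closure ⟨j, h, rfl⟩⟩ else 1

theorem vSub_coe (σ : ℕ → ℕ) (k : ℕ) {j : ℕ} (h : j < k) : ((S.vSub σ k j : S.letGrp σ k) : PresentedGroup S.rels) = S.v (σ j) := by
  simp [vSub, h]

theorem eval_vSub_coe (σ : ℕ → ℕ) (k : ℕ) {w : List ℕ} (h : ∀ g ∈ w, g < k) :
    ((evalWord (S.vSub σ k) w : S.letGrp σ k) : PresentedGroup S.rels) = evalWord S.v (w.map σ) := by
  induction w with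
  | nil => rfl
  | cons g w ih =>
    rw [evalWord_cons, List.map_cons, evalWord_cons, Subgroup.coe_mul, S.vSub_coe σ k (h g (by simp)),
      ih (fun a ha => h a (by simp [ha]))]

/-- The upper bound for a relative index from a certificate in new letters `j < k`, standing for the letters `σ j`. -/
theorem relIndex_le (σ : ℕ → ℕ) (k : ℕ) (inv' : ℕ → ℕ)
    (hσ : ∀ j, j < k → σ j < S.ng ∧ inv' j < k ∧ σ (inv' j) = S.inv (σ j))
    (L : Subgroup (PresentedGroup S.rels)) (c : Cert) (words : List (List ℕ))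
    (hW : c.W = wordAt words)
    (hep : c.ep = k) (hsz : c.sz = k + 1)
    (hnW : c.nW = words.length) (hnrel : c.nrel ≤ c.nW)
    (hletters : ∀ w ∈ words, ∀ g ∈ w, g < c.sz)
    (hlet2 : ∀ w ∈ words, ∀ g ∈ w, g < k)
    (hrel : ∀ w ∈ words.take c.nrel, isPseudo k inv' w = true ∨ ∃ r ∈ S.rels, encW S.code S.inv r = w.map σ)
    (hsub : ∀ w ∈ words.drop c.nrel, evalWord S.v (w.map σ) ∈ L)
    (hE : ∀ k, c.K ≤ k → c.E k = 0)
    (hcheck : ∀ k, k < c.K → c.chk k = true)
    (n : ℕ) (nm : ℕ → ℕ) (T : ℕ → ℕ → ℕ) (hn : 0 < n) (hnm0 : nm 0 = 0)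
    (hfin : ∀ i, i < n → ∀ g, g < k → T i g < n ∧
      wA c.sz c.ep c.b c.m c.E 0 c.fuel [g] (nm i) (nm (T i g)) = true) :
    L.relIndex (S.letGrp σ k) ≠ 0 ∧ L.relIndex (S.letGrp σ k) ≤ n := by
  have hinvv : ∀ j, j < k → S.vSub σ k (inv' j) = (S.vSub σ k j)⁻¹ := by
    intro j hj
    obtain ⟨h1, h2, h3⟩ := hσ j hj
    apply Subtype.ext
    rw [S.vSub_coe σ k h2, h3, S.v_inv h1, Subgroup.coe_inv, S.vSub_coe σ k hj]
  refine index_le_of_cert (L.subgroupOf (S.letGrp σ k)) (S.vSub σ k) c (ι := Fin k) (fun x => x.val) inv' ?_ ?_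
    (by omega) ?_ hE ?_ ?_ hnrel ?_ hcheck n k nm T hn hnm0 (by omega) (fun x => x.2)
    (fun x => (hσ x x.2).2.1) hfin
  · -- generation
    have : (Set.range fun x : Fin k => S.vSub σ k x.val) =
        ((↑) : S.letGrp σ k → PresentedGroup S.rels) ⁻¹' ((fun j => S.v (σ j)) '' {j | j < k}) := by
      ext y
      constructor
      · rintro ⟨x, rfl⟩
        exact ⟨x.val, x.2, (S.vSub_coe σ k x.2).symm⟩
      · rintro ⟨j, hj, h⟩
        exact ⟨⟨j, hj⟩, Subtype.ext (by rw [S.vSub_coe σ k hj]; exact h)⟩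
    rw [this]
    exact Subgroup.closure_closure_coe_preimage
  · intro x
    exact hinvv x x.2
  · rw [hep]
    simp [vSub]
  · intro j hj h hh
    rw [hW, wordAt_eq_getD] at hh
    rw [hnW] at hj
    rw [List.getD_eq_getElem _ _ hj] at hh
    exact hletters _ (List.getElem_mem hj) h hh
  · intro j hj
    rw [hW, wordAt_eq_getD]
    have hj' : j < words.length := by omega
    rw [List.getD_eq_getElem _ _ hj']
    have hmem : words[j] ∈ words.take c.nrel := by
      rw [List.mem_take_iff_getElem]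
      exact ⟨j, by omega, rfl⟩
    have hlet : ∀ g ∈ words[j], g < k := hlet2 _ (List.getElem_mem hj')
    generalize words[j] = w at hmem hlet
    rcases hrel _ hmem with h1 | ⟨r, hr, h2⟩
    · match w, h1 with
      | [g, k'], h1 =>
        simp only [isPseudo, Bool.and_eq_true, decide_eq_true_eq] at h1
        obtain ⟨h1, rfl⟩ := h1
        simp [hinvv g h1]
    · apply Subtype.ext
      rw [S.eval_vSub_coe σ k hlet, ← h2, S.evalWord_encW]
      simpa using PresentedGroup.one_of_mem hr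
  · intro j hj hj'
    rw [hW, wordAt_eq_getD]
    have hj'' : j < words.length := by omega
    rw [List.getD_eq_getElem _ _ hj'']
    have hmem : words[j] ∈ words.drop c.nrel := by
      rw [List.mem_drop_iff_getElem]
      exact ⟨j - c.nrel, by omega, by simp [Nat.add_sub_cancel' hj']⟩
    rw [Subgroup.mem_subgroupOf, S.eval_vSub_coe σ k (hlet2 _ (List.getElem_mem hj''))]
    exact hsub _ hmem

/-- The subgroup generated by a list of letters. -/
def letL (A : List ℕ) : Subgroup (PresentedGroup S.rels) :=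
  S.letGrp (fun j => A.getD j 0) A.length

theorem mem_letL {A : List ℕ} {g : ℕ} (h : g ∈ A) : S.v g ∈ S.letL A := by
  obtain ⟨j, hj, rfl⟩ := List.getElem_of_mem h
  refine Subgroup.subset_closure ⟨j, hj, ?_⟩
  show S.v (A.getD j 0) = S.v A[j]
  rw [List.getD_eq_getElem _ _ hj]

theorem letL_le_iff {A : List ℕ} {K : Subgroup (PresentedGroup S.rels)} (h : ∀ g ∈ A, S.v g ∈ K) :
    S.letL A ≤ K := by
  apply (Subgroup.closure_le _).2
  rintro _ ⟨j, hj, rfl⟩
  have hj' : j < A.length := hj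
  apply h
  show A.getD j 0 ∈ A
  rw [List.getD_eq_getElem _ _ hj']
  exact List.getElem_mem hj'

theorem letL_mono {A B : List ℕ} (h : ∀ g ∈ B, g ∈ A) : S.letL B ≤ S.letL A :=
  S.letL_le_iff fun g hg => S.mem_letL (h g hg)

theorem letL_nil : S.letL [] = ⊥ := by
  rw [eq_bot_iff]
  exact S.letL_le_iff (by simp)

theorem letL_top {A : List ℕ} (h : ∀ x, S.code x ∈ A) : S.letL A = ⊤ := by
  rw [eq_top_iff, ← S.closure_eq_top]
  apply (Subgroup.closure_le _).2
  rintro _ ⟨x, rfl⟩
  exact S.mem_letL (h x)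

/-- The subgroup generated by words of letters. -/
theorem subOf_eq_letL {subs : Set (FreeGroup α)} (A : SubWords S subs) (L : List ℕ)
    (h1 : ∀ w ∈ A.W, ∃ g ∈ L, w = [g]) (h2 : ∀ g ∈ L, [g] ∈ A.W) : subOf S subs = S.letL L := by
  apply le_antisymm
  · unfold subOf
    rw [MonoidHom.map_closure]
    apply (Subgroup.closure_le _).2
    rintro _ ⟨s, hs, rfl⟩
    obtain ⟨g, hg, h3⟩ := h1 _ (A.h1 s hs)
    have h4 := S.evalWord_encW s
    rw [h3] at h4
    rw [SetLike.mem_coe]
    rw [← h4]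
    simpa using S.mem_letL hg
  · apply S.letL_le_iff
    intro g hg
    obtain ⟨s, hs, h3⟩ := A.h2 _ (h2 g hg)
    have h4 := S.evalWord_encW s
    rw [h3] at h4
    have h5 : S.v g = PresentedGroup.mk S.rels s := by simpa using h4
    rw [h5]
    exact ⟨s, Subgroup.subset_closure hs, rfl⟩

/-- Certificates for letters: the conclusion for lists. -/
theorem relIndex_letL (A B : List ℕ) (inv' : ℕ → ℕ)
    (hσ : ∀ j, j < A.length → A.getD j 0 < S.ng ∧ inv' j < A.length ∧ A.getD (inv' j) 0 = S.inv (A.getD j 0))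
    (c : Cert) (words : List (List ℕ))
    (hW : c.W = wordAt words)
    (hep : c.ep = A.length) (hsz : c.sz = A.length + 1)
    (hnW : c.nW = words.length) (hnrel : c.nrel ≤ c.nW)
    (hletters : ∀ w ∈ words, ∀ g ∈ w, g < c.sz)
    (hlet2 : ∀ w ∈ words, ∀ g ∈ w, g < A.length)
    (hrel : ∀ w ∈ words.take c.nrel, isPseudo A.length inv' w = true ∨
      ∃ r ∈ S.rels, encW S.code S.inv r = w.map fun j => A.getD j 0)
    (hsub : ∀ w ∈ words.drop c.nrel, ∃ g ∈ B, (w.map fun j => A.getD j 0) = [g])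
    (hE : ∀ k, c.K ≤ k → c.E k = 0)
    (hcheck : ∀ k, k < c.K → c.chk k = true)
    (n : ℕ) (nm : ℕ → ℕ) (T : ℕ → ℕ → ℕ) (hn : 0 < n) (hnm0 : nm 0 = 0)
    (hfin : ∀ i, i < n → ptFin2 n A.length T nm c.sz c.ep c.b c.m c.E c.fuel i = true) :
    (S.letL B).relIndex (S.letL A) ≠ 0 ∧ (S.letL B).relIndex (S.letL A) ≤ n := by
  refine S.relIndex_le (fun j => A.getD j 0) A.length inv' hσ (S.letL B) c words hW hep hsz hnW hnrel hletters hlet2 hrel ?_
    hE hcheck n nm T hn hnm0 (fun i hi g hg => ptFin2_spec (hfin i hi) g hg)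
  intro w hw
  obtain ⟨g, hg, h1⟩ := hsub w hw
  rw [h1]
  simpa using S.mem_letL hg

/-- Certificates for letters, with relators known to hold. -/
theorem relIndex_letL' (A B : List ℕ) (inv' : ℕ → ℕ)
    (hσ : ∀ j, j < A.length → A.getD j 0 < S.ng ∧ inv' j < A.length ∧ A.getD (inv' j) 0 = S.inv (A.getD j 0))
    (c : Cert) (words : List (List ℕ))
    (hW : c.W = wordAt words)
    (hep : c.ep = A.length) (hsz : c.sz = A.length + 1)
    (hnW : c.nW = words.length) (hnrel : c.nrel ≤ c.nW)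
    (hletters : ∀ w ∈ words, ∀ g ∈ w, g < c.sz)
    (hlet2 : ∀ w ∈ words, ∀ g ∈ w, g < A.length)
    (hrel : ∀ w ∈ words.take c.nrel, isPseudo A.length inv' w = true ∨
      evalWord S.v (w.map fun j => A.getD j 0) = 1)
    (hsub : ∀ w ∈ words.drop c.nrel, ∃ g ∈ B, (w.map fun j => A.getD j 0) = [g])
    (hE : ∀ k, c.K ≤ k → c.E k = 0)
    (hcheck : ∀ k, k < c.K → c.chk k = true)
    (n : ℕ) (nm : ℕ → ℕ) (T : ℕ → ℕ → ℕ) (hn : 0 < n) (hnm0 : nm 0 = 0)
    (hfin : ∀ i, i < n → ptFin2 n A.length T nm c.sz c.ep c.b c.m c.E c.fuel i = true) :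
    (S.letL B).relIndex (S.letL A) ≠ 0 ∧ (S.letL B).relIndex (S.letL A) ≤ n := by
  let σ : ℕ → ℕ := fun j => A.getD j 0
  let k := A.length
  have hinvv : ∀ j, j < k → S.vSub σ k (inv' j) = (S.vSub σ k j)⁻¹ := by
    intro j hj
    obtain ⟨h1, h2, h3⟩ := hσ j hj
    apply Subtype.ext
    rw [S.vSub_coe σ k h2, Subgroup.coe_inv, S.vSub_coe σ k hj]
    show S.v (A.getD (inv' j) 0) = (S.v (A.getD j 0))⁻¹
    rw [h3, S.v_inv h1]
  refine index_le_of_cert ((S.letL B).subgroupOf (S.letGrp σ k)) (S.vSub σ k) c (ι := Fin k) (fun x => x.val) inv' ?_ ?_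
    (by omega) ?_ hE ?_ ?_ hnrel ?_ hcheck n k nm T hn hnm0 (by omega) (fun x => x.2)
    (fun x => (hσ x x.2).2.1) (fun i hi g hg => ptFin2_spec (hfin i hi) g hg)
  · -- generation
    have : (Set.range fun x : Fin k => S.vSub σ k x.val) =
        ((↑) : S.letGrp σ k → PresentedGroup S.rels) ⁻¹' ((fun j => S.v (σ j)) '' {j | j < k}) := by
      ext y
      constructor
      · rintro ⟨x, rfl⟩
        exact ⟨x.val, x.2, (S.vSub_coe σ k x.2).symm⟩
      · rintro ⟨j, hj, h⟩
        exact ⟨⟨j, hj⟩, Subtype.ext (by rw [S.vSub_coe σ k hj]; exact h)⟩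
    rw [this]
    exact Subgroup.closure_closure_coe_preimage
  · intro x
    exact hinvv x x.2
  · rw [hep]
    simp [vSub, k]
  · intro j hj h hh
    rw [hW, wordAt_eq_getD] at hh
    rw [hnW] at hj
    rw [List.getD_eq_getElem _ _ hj] at hh
    exact hletters _ (List.getElem_mem hj) h hh
  · intro j hj
    rw [hW, wordAt_eq_getD]
    have hj' : j < words.length := by omega
    rw [List.getD_eq_getElem _ _ hj']
    have hmem : words[j] ∈ words.take c.nrel := by
      rw [List.mem_take_iff_getElem]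
      exact ⟨j, by omega, rfl⟩
    have hlet : ∀ g ∈ words[j], g < k := hlet2 _ (List.getElem_mem hj')
    generalize words[j] = w at hmem hlet
    rcases hrel _ hmem with h1 | h2
    · match w, h1 with
      | [g, k'], h1 =>
        simp only [isPseudo, Bool.and_eq_true, decide_eq_true_eq] at h1
        obtain ⟨h1, rfl⟩ := h1
        simp [hinvv g h1]
    · apply Subtype.ext
      rw [S.eval_vSub_coe σ k hlet]
      exact h2
  · intro j hj hj'
    rw [hW, wordAt_eq_getD]
    have hj'' : j < words.length := by omega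
    rw [List.getD_eq_getElem _ _ hj'']
    have hmem : words[j] ∈ words.drop c.nrel := by
      rw [List.mem_drop_iff_getElem]
      exact ⟨j - c.nrel, by omega, by simp [Nat.add_sub_cancel' hj']⟩
    rw [Subgroup.mem_subgroupOf, S.eval_vSub_coe σ k (hlet2 _ (List.getElem_mem hj''))]
    obtain ⟨g, hg, h1⟩ := hsub _ hmem
    rw [show (words[j].map σ) = [g] from h1]
    simpa using S.mem_letL hg

/-- A word is trivial in the group, from a (partial) enumeration of the cosets of the trivial subgroup. -/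
theorem eval_eq_one_of_walk (c : Cert) (words : List (List ℕ))
    (hW : c.W = wordAt words)
    (hep : c.ep = S.ng) (hsz : c.sz = S.ng + 1)
    (hnW : c.nW = words.length) (hnrel : c.nrel = c.nW)
    (hletters : ∀ w ∈ words, ∀ g ∈ w, g < c.sz)
    (hrel : ∀ w ∈ words, isPseudo S.ng S.inv w = true ∨ ∃ r ∈ S.rels, encW S.code S.inv r = w)
    (hE : ∀ k, c.K ≤ k → c.E k = 0)
    (hcheck : ∀ k, k < c.K → c.chk k = true)
    (w : List ℕ) (hw : ∀ g ∈ w, g < c.sz) (hgoal : wA c.sz c.ep c.b c.m c.E 0 c.fuel w 0 0 = true) :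
    evalWord S.v w = 1 := by
  classical
  let L : Subgroup (PresentedGroup S.rels) := ⊥
  let act := cosetAct L S.v
  let x0 : PresentedGroup S.rels ⧸ L := ((1 : PresentedGroup S.rels) : PresentedGroup S.rels ⧸ L)
  have hep' : c.ep < c.sz := by omega
  have heps : ∀ x, act c.ep x = x := by
    intro x
    simp [act, cosetAct, hep, S.v_ge le_rfl]
  have hinj : ∀ g x y, act g x = act g y → x = y := by
    intro g x y h
    exact smul_left_cancel _ h
  have hmem : ∀ j, j < c.nW → c.W j ∈ words := by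
    intro j hj
    rw [hW, wordAt_eq_getD]
    rw [hnW] at hj
    rw [List.getD_eq_getElem _ _ hj]
    exact List.getElem_mem hj
  have hrel' : ∀ j, j < c.nrel → ∀ x, actWord act (c.W j) x = x := by
    intro j hj x
    rw [show act = cosetAct L S.v from rfl, actWord_cosetAct]
    have h1 : evalWord S.v (c.W j) = 1 := by
      rcases hrel _ (hmem j (by omega)) with h | ⟨r, hr, h⟩
      · exact S.evalWord_isPseudo h
      · rw [← h, S.evalWord_encW]
        exact PresentedGroup.one_of_mem hr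
    rw [h1]
    simp
  have hsound := wA_sound (ρ := c.ρ act x0) hep' heps (τ0 := 0)
    (fun k hk => c.holds_all act x0 hep' heps hinj hE (fun j hj h hh => hletters _ (hmem j hj) h hh) hrel'
      (by omega) (fun j hj hj' => absurd hj (by omega)) hcheck k hk)
    c.fuel w 0 0 hw hgoal
  rw [c.ρ_zero, show act = cosetAct L S.v from rfl, actWord_cosetAct] at hsound
  have h2 : (((evalWord S.v w)⁻¹ • (1 : PresentedGroup S.rels) : PresentedGroup S.rels) : PresentedGroup S.rels ⧸ L) = x0 := hsound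
  rw [QuotientGroup.eq] at h2
  have h3 := Subgroup.mem_bot.1 h2
  simpa using h3

end Sys

end Cfsg.Agent.Lib.TC
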