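/-
Presentations on Coxeter diagrams, as lists of relators; building the objects of `Check` from lists.
-/
import Cfsg.Agent.Lib.TC.Check
import Cfsg.Prelude.Def_SporCoxeter

set_option autoImplicit false

namespace Cfsg.Agent.Lib.TC

open Cfsg.Spor

section

variable {α : Type*} [DecidableEq α]

/-- The relators of a diagram with further relators, as a list. -/
def coxRelsL (edges : List (α × ℕ × α)) (extra : List (FreeGroup α)) : List (FreeGroup α) :=
  ((coxNodes edges).flatMap fun x => (coxNodes edges).map fun y =>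
    (FreeGroup.of x * FreeGroup.of y) ^ coxLabel edges x y) ++ extra

theorem mem_coxRelsL (edges : List (α × ℕ × α)) (extra : List (FreeGroup α)) (r : FreeGroup α) :
    r ∈ coxRelsL edges extra ↔ r ∈ coxRelators edges ∪ {r | r ∈ extra} := by
  simp only [coxRelsL, List.mem_append, List.mem_flatMap, List.mem_map, coxRelators, Set.mem_union,
    Set.mem_ofPred_eq]
  constructor
  · rintro (⟨x, hx, y, hy, rfl⟩ | h)
    · exact Or.inl ⟨x, hx, y, hy, rfl⟩
    · exact Or.inr h
  · rintro (⟨x, hx, y, hy, rfl⟩ | h)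
    · exact Or.inl ⟨x, hx, y, hy, rfl⟩
    · exact Or.inr h

theorem sq_mem_cox (edges : List (α × ℕ × α)) (extra : List (FreeGroup α)) {x : α} (hx : x ∈ coxNodes edges) :
    FreeGroup.of x * FreeGroup.of x ∈ coxRelators edges ∪ {r | r ∈ extra} := by
  refine Or.inl ⟨x, hx, x, hx, ?_⟩
  simp [coxLabel]

end

namespace Sys

variable {α : Type*} [DecidableEq α] (S : Sys α)

/-- `SubWords` from a list. -/
def subWordsOfList {subs : Set (FreeGroup α)} (SL : List (FreeGroup α)) (W : List (List ℕ))
    (hW : W = SL.map (encW S.code S.inv)) (hS : ∀ s, s ∈ subs ↔ s ∈ SL) : SubWords S subs where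
  W := W
  h1 := by
    intro s hs
    rw [hW]
    exact List.mem_map_of_mem ((hS s).1 hs)
  h2 := by
    intro w hw
    rw [hW, List.mem_map] at hw
    obtain ⟨s, hs, rfl⟩ := hw
    exact ⟨s, (hS s).2 hs, rfl⟩

end Sys

end Cfsg.Agent.Lib.TC
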