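/-
Lower bounds for the order of a permutation group generated by words in a table, from the orbits along a chain.
-/
import Cfsg.Agent.Lib.TC.Chain

set_option autoImplicit false

namespace Cfsg.Agent.Lib.TC

open scoped Pointwise

/-- Is a bit of a mask set? -/
noncomputable def bitOf (m p : ℕ) : Bool := Nat.beq (Nat.land (Nat.shiftRight m p) (nat_lit 1)) (nat_lit 1)

theorem bitOf_iff (m p : ℕ) : bitOf m p = true ↔ m.testBit p = true := by
  unfold bitOf
  have : Nat.land (Nat.shiftRight m p) 1 = (m >>> p) &&& 1 := rfl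
  rw [this, Nat.and_one_is_mod]
  simp only [Nat.testBit]
  constructor
  · intro h
    have h1 : m >>> p % 2 = 1 := Nat.eq_of_beq_eq_true h
    simp [h1]
  · intro h
    have h2 : m >>> p % 2 = 1 := by
      rcases Nat.mod_two_eq_zero_or_one (m >>> p) with h3 | h3
      · simp [h3] at h
      · exact h3
    rw [h2]
    rfl

/-- The walk along one entry `(pt, par, g)` of an orbit, first checking that `par` was seen and `pt` was not. -/
noncomputable def orbFold (T : ℕ → ℕ → ℕ) (W : ℕ → List ℕ) (nW n : ℕ) (es : List (ℕ × ℕ × ℕ)) : ℕ → Bool :=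
  List.rec (motive := fun _ => ℕ → Bool) (fun _ => true)
    (fun e _ ih m =>
      bif' (bitOf m e.2.1)
        (Bool.rec
          (bif' (Nat.blt e.2.2 nW)
            (bif' (Nat.blt e.1 n)
              (bif' (Nat.beq (walk T (W e.2.2) e.2.1) e.1)
                (ih (Nat.lor m (Nat.shiftLeft (nat_lit 1) e.1))) false) false) false)
          false (bitOf m e.1))
        false) es

theorem orbFold_spec {T : ℕ → ℕ → ℕ} {W : ℕ → List ℕ} {nW n : ℕ} (O : Set ℕ)
    (hstep : ∀ p g, p ∈ O → g < nW → walk T (W g) p ∈ O) :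
    ∀ (es : List (ℕ × ℕ × ℕ)) (m : ℕ) (F : Finset ℕ), (∀ i, i ∈ F ↔ m.testBit i = true) → (↑F ⊆ O) →
      orbFold T W nW n es m = true → ∃ F' : Finset ℕ, ↑F' ⊆ O ∧ F'.card = F.card + es.length := by
  intro es
  induction es with
  | nil =>
    intro m F _ hF _
    exact ⟨F, hF, by simp⟩
  | cons e es ih =>
    intro m F hmF hF h
    obtain ⟨pt, p, g⟩ := e
    change bif' (bitOf m p)
      (Bool.rec
        (bif' (Nat.blt g nW)
          (bif' (Nat.blt pt n)
            (bif' (Nat.beq (walk T (W g) p) pt)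
              (orbFold T W nW n es (Nat.lor m (Nat.shiftLeft (nat_lit 1) pt))) false) false) false)
        false (bitOf m pt)) false = true at h
    obtain ⟨h1, h⟩ := bif'_spec h rfl
    have hnew : bitOf m pt = false := by
      cases hb : bitOf m pt with
      | false => rfl
      | true => rw [hb] at h; exact absurd h (by simp)
    rw [hnew] at h
    change bif' (Nat.blt g nW)
          (bif' (Nat.blt pt n)
            (bif' (Nat.beq (walk T (W g) p) pt)
              (orbFold T W nW n es (Nat.lor m (Nat.shiftLeft (nat_lit 1) pt))) false) false) false = true at h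
    obtain ⟨h2, h⟩ := bif'_spec h rfl
    obtain ⟨_, h⟩ := bif'_spec h rfl
    obtain ⟨h4, h⟩ := bif'_spec h rfl
    have hp : p ∈ F := (hmF p).2 ((bitOf_iff m p).1 h1)
    have hptO : pt ∈ O := by
      rw [← Nat.eq_of_beq_eq_true h4]
      exact hstep p g (hF hp) (nat_blt_true h2)
    have hptF : pt ∉ F := by
      intro hh
      have := (bitOf_iff m pt).2 ((hmF pt).1 hh)
      rw [hnew] at this
      exact absurd this (by simp)
    obtain ⟨F', h5, h6⟩ := ih (Nat.lor m (Nat.shiftLeft 1 pt)) (insert pt F) (by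
      intro i
      have e1 : Nat.lor m (Nat.shiftLeft 1 pt) = m ||| (1 <<< pt) := rfl
      rw [e1, Nat.testBit_or, Finset.mem_insert, hmF, Nat.one_shiftLeft, Nat.testBit_two_pow]
      simp only [Bool.or_eq_true, decide_eq_true_eq]
      constructor
      · rintro (h | h)
        · exact Or.inr h.symm
        · exact Or.inl h
      · rintro (h | h)
        · exact Or.inr h
        · exact Or.inl h.symm) (by
      intro i hi
      rcases Finset.mem_insert.1 (Finset.mem_coe.1 hi) with rfl | hi
      · exact hptO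
      · exact hF hi) h
    refine ⟨F', h5, ?_⟩
    rw [h6, Finset.card_insert_of_notMem hptF, List.length_cons]
    omega

theorem testBit_shift_one (p i : ℕ) : (1 <<< p : ℕ).testBit i = true ↔ i = p := by
  rw [Nat.one_shiftLeft, Nat.testBit_two_pow]
  simp [eq_comm]

/-- The subgroup generated by the perms of a list of words. -/
def Tbl.gp (t : Tbl) (Ws : List (List ℕ)) : Subgroup (Equiv.Perm (Fin t.n)) :=
  Subgroup.closure ((evalWord t.perm) '' {w | w ∈ Ws})

/-- One step of the lower bound for the order. -/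
theorem Tbl.level (t : Tbl) (Ws Ws' : List (List ℕ)) (hsub : ∀ w ∈ Ws', w ∈ Ws)
    (hlet : ∀ w ∈ Ws, ∀ g ∈ w, g < t.ng)
    (p : ℕ) (hp : p < t.n) (hfix : ∀ w ∈ Ws', walk t.T w p = p)
    (W : ℕ → List ℕ) (nW : ℕ) (hW : ∀ g, g < nW → W g ∈ Ws)
    (es : List (ℕ × ℕ × ℕ)) (hes : orbFold t.T W nW t.n es (Nat.shiftLeft (nat_lit 1) p) = true)
    (b : ℕ) (hb : b ≤ Nat.card (t.gp Ws')) :
    (es.length + 1) * b ≤ Nat.card (t.gp Ws) := by
  classical
  let A := t.gp Ws
  let p' : Fin t.n := ⟨p, hp⟩
  -- the orbit as a set of numbers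
  let O : Set ℕ := {i | ∃ a ∈ A, (a p').val = i}
  have hO0 : p ∈ O := ⟨1, one_mem _, rfl⟩
  have hOlt : ∀ i ∈ O, i < t.n := by
    rintro i ⟨a, _, rfl⟩
    exact (a p').2
  have hstep : ∀ q g, q ∈ O → g < nW → walk t.T (W g) q ∈ O := by
    rintro _ g ⟨a, ha, rfl⟩ hg
    have hw := hW g hg
    refine ⟨(evalWord t.perm (W g))⁻¹ * a, mul_mem (inv_mem (Subgroup.subset_closure ⟨_, hw, rfl⟩)) ha, ?_⟩
    rw [Equiv.Perm.mul_apply, t.evalWord_symm_val _ (hlet _ hw)]
  obtain ⟨F', hF', hcard⟩ := orbFold_spec O hstep es (Nat.shiftLeft 1 p) {p} (by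
      intro i
      rw [Finset.mem_singleton]
      exact (testBit_shift_one p i).symm) (by simpa using hO0) hes
  rw [Finset.card_singleton] at hcard
  -- the orbit of the group on points
  have horb : es.length + 1 ≤ Nat.card (MulAction.orbit A p') := by
    have hfinj : ∀ x ∈ F', ∃ y : MulAction.orbit A p', y.1.val = x := by
      intro x hx
      obtain ⟨a, ha, rfl⟩ := hF' hx
      exact ⟨⟨a p', ⟨⟨a, ha⟩, rfl⟩⟩, rfl⟩
    have hle : F'.card ≤ Nat.card (MulAction.orbit A p') := by
      rw [Nat.card_eq_fintype_card]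
      let f : MulAction.orbit A p' → ℕ := fun y => y.1.val
      have : F' ⊆ Finset.univ.image f := by
        intro x hx
        obtain ⟨y, hy⟩ := hfinj x hx
        exact Finset.mem_image.2 ⟨y, Finset.mem_univ _, hy⟩
      calc F'.card ≤ (Finset.univ.image f).card := Finset.card_le_card this
        _ ≤ _ := Finset.card_image_le
    omega
  -- the smaller group is in the stabiliser
  have hstab : (t.gp Ws').subgroupOf A ≤ MulAction.stabilizer A p' := by
    have hfin : ∀ a ∈ t.gp Ws', a p' = p' := by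
      intro a ha
      induction ha using Subgroup.closure_induction with
      | mem x hx =>
        obtain ⟨w, hw, rfl⟩ := hx
        have h1 : (evalWord t.perm w)⁻¹ p' = p' :=
          Fin.ext (by rw [t.evalWord_symm_val _ (hlet _ (hsub w hw))]; exact hfix w hw)
        rw [Equiv.Perm.inv_eq_iff_eq] at h1
        exact h1.symm
      | one => rfl
      | mul a b _ _ ha hb => rw [Equiv.Perm.mul_apply, hb, ha]
      | inv a _ ha => rw [Equiv.Perm.inv_eq_iff_eq, ha]
    intro a ha
    exact hfin _ (Subgroup.mem_subgroupOf.1 ha)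
  have hAle : t.gp Ws' ≤ A := by
    apply (Subgroup.closure_le _).2
    rintro _ ⟨w, hw, rfl⟩
    exact Subgroup.subset_closure ⟨w, hsub w hw, rfl⟩
  have hc1 : Nat.card (t.gp Ws') ≤ Nat.card (MulAction.stabilizer A p') := by
    have h1 : Nat.card ((t.gp Ws').subgroupOf A) = Nat.card (t.gp Ws') :=
      Nat.card_congr (Subgroup.subgroupOfEquivOfLe hAle).toEquiv
    rw [← h1]
    exact Subgroup.card_le_of_le hstab
  have hc2 := MulAction.card_orbit_mul_card_stabilizer_eq_card_group A p'
  calc (es.length + 1) * b ≤ Nat.card (MulAction.orbit A p') * Nat.card (MulAction.stabilizer A p') :=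
        Nat.mul_le_mul horb (hb.trans hc1)
    _ = Nat.card A := by simpa only [Nat.card_eq_fintype_card] using hc2

theorem Tbl.gp_nil (t : Tbl) : Nat.card (t.gp []) = 1 := by
  have : t.gp [] = ⊥ := by
    unfold Tbl.gp
    simp
  rw [this, Subgroup.card_bot]

theorem Tbl.gp_fix (t : Tbl) (Ws : List (List ℕ)) (hlet : ∀ w ∈ Ws, ∀ g ∈ w, g < t.ng) (p : Fin t.n)
    (hfix : ∀ w ∈ Ws, walk t.T w p = p) : ∀ a ∈ t.gp Ws, a p = p := by
  intro a ha
  induction ha using Subgroup.closure_induction with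
  | mem x hx =>
    obtain ⟨w, hw, rfl⟩ := hx
    have h1 : (evalWord t.perm w)⁻¹ p = p :=
      Fin.ext (by rw [t.evalWord_symm_val _ (hlet _ hw)]; exact hfix w hw)
    rw [Equiv.Perm.inv_eq_iff_eq] at h1
    exact h1.symm
  | one => rfl
  | mul a b _ _ ha hb => rw [Equiv.Perm.mul_apply, hb, ha]
  | inv a _ ha => rw [Equiv.Perm.inv_eq_iff_eq, ha]

/-- One step of the lower bound, for the tails of a list of words. -/
theorem Tbl.levelD (t : Tbl) (SW : List (List ℕ)) (hlet : ∀ w ∈ SW, ∀ g ∈ w, g < t.ng) (l l' : ℕ) (hll : l ≤ l')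
    (p : ℕ) (hp : p < t.n) (hfix : relsOk t.T (SW.drop l') p = true)
    (es : List (ℕ × ℕ × ℕ))
    (hes : orbFold t.T (fun g => wordAt SW (Nat.add g l)) (SW.length - l) t.n es (Nat.shiftLeft (nat_lit 1) p) = true)
    (b b' : ℕ) (hb : b ≤ Nat.card (t.gp (SW.drop l'))) (hbb : (es.length + 1) * b = b') :
    b' ≤ Nat.card (t.gp (SW.drop l)) := by
  rw [← hbb]
  refine Tbl.level t (SW.drop l) (SW.drop l') ?_ ?_ p hp (fun w hw => relsOk_spec hfix w hw)
    (fun g => wordAt SW (Nat.add g l)) (SW.length - l) ?_ es hes b hb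
  · intro w hw
    exact (List.drop_sublist_drop_left SW hll).subset hw
  · intro w hw
    exact hlet w (List.mem_of_mem_drop hw)
  · intro g hg
    show wordAt SW (g + l) ∈ SW.drop l
    rw [wordAt_eq_getD]
    have h1 : g + l < SW.length := by omega
    rw [List.getD_eq_getElem _ _ h1, List.mem_drop_iff_getElem]
    exact ⟨g, by omega, by simp [Nat.add_comm]⟩

theorem Tbl.gp_drop_length (t : Tbl) (SW : List (List ℕ)) (l : ℕ) (h : SW.length ≤ l) :
    1 ≤ Nat.card (t.gp (SW.drop l)) := by
  rw [List.drop_eq_nil_of_le h, Tbl.gp_nil]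

/-- An iteration for the kernel. -/
noncomputable def iterN (f : ℕ → ℕ) (m : ℕ) : ℕ → ℕ :=
  Nat.rec (motive := fun _ => ℕ → ℕ) (fun i => i) (fun _ ih i => ih (f i)) m

theorem iterN_eq (f : ℕ → ℕ) (m i : ℕ) : iterN f m i = f^[m] i := by
  induction m generalizing i with
  | zero => rfl
  | succ m ih =>
    rw [Function.iterate_succ_apply, ← ih]
    rfl

theorem card_ge_of_transitive {n : ℕ} (P A : Subgroup (Equiv.Perm (Fin n))) (p0 : Fin n)
    (htrans : ∀ i, ∃ a ∈ P, a p0 = i) (hle : A ≤ P) (hfix : ∀ a ∈ A, a p0 = p0) (b : ℕ)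
    (hb : b ≤ Nat.card A) : n * b ≤ Nat.card P := by
  classical
  have horb : MulAction.orbit P p0 = Set.univ := by
    ext i
    simp only [Set.mem_univ, iff_true]
    obtain ⟨a, ha, hg⟩ := htrans i
    exact ⟨⟨a, ha⟩, hg⟩
  have hstab : A.subgroupOf P ≤ MulAction.stabilizer P p0 := by
    intro a ha
    exact hfix _ (Subgroup.mem_subgroupOf.1 ha)
  have hc1 : Nat.card A ≤ Nat.card (MulAction.stabilizer P p0) := by
    have h1 : Nat.card (A.subgroupOf P) = Nat.card A :=
      Nat.card_congr (Subgroup.subgroupOfEquivOfLe hle).toEquiv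
    rw [← h1]
    exact Subgroup.card_le_of_le hstab
  have hc2 := MulAction.card_orbit_mul_card_stabilizer_eq_card_group P p0
  have hc3 : Nat.card (MulAction.orbit P p0) = n := by
    rw [horb, Nat.card_coe_set_eq, Set.ncard_univ]
    simp
  calc n * b ≤ Nat.card (MulAction.orbit P p0) * Nat.card (MulAction.stabilizer P p0) := by
        rw [hc3]
        exact Nat.mul_le_mul_left _ (hb.trans hc1)
    _ = Nat.card P := by simpa only [Nat.card_eq_fintype_card] using hc2

namespace Sys

variable {α : Type*} [DecidableEq α] {S : Sys α} (D : S.TableData)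

/-- The subgroup generated by words lies in the image of the representation. -/
theorem TableData.gp_le_range (Ws : List (List ℕ)) (hlet : ∀ w ∈ Ws, ∀ g ∈ w, g < S.ng) :
    D.tbl.gp Ws ≤ D.φ.range := by
  apply (Subgroup.closure_le _).2
  rintro _ ⟨w, hw, rfl⟩
  exact ⟨evalWord S.v w, D.φ_eval (hlet w hw)⟩

/-- The image of the representation, transitive, against a group fixing the base point. -/
theorem TableData.card_range_ge (htrans : ∀ i : Fin D.n, ∃ g, D.φ g ⟨0, D.hn⟩ = i)
    (Ws : List (List ℕ)) (hlet : ∀ w ∈ Ws, ∀ g ∈ w, g < S.ng)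
    (hfix : ∀ w ∈ Ws, walk D.T w 0 = 0) (b : ℕ) (hb : b ≤ Nat.card (D.tbl.gp Ws)) :
    D.n * b ≤ Nat.card D.φ.range := by
  refine card_ge_of_transitive D.φ.range (D.tbl.gp Ws) ⟨0, D.hn⟩ ?_ (D.gp_le_range Ws hlet)
    (D.tbl.gp_fix Ws hlet ⟨0, D.hn⟩ hfix) b hb
  intro i
  obtain ⟨g, hg⟩ := htrans i
  exact ⟨D.φ g, ⟨g, rfl⟩, hg⟩

/-- A faithful representation from the bounds on the orders. -/
theorem TableData.faithful {B : ℕ} (hpos : 0 < Nat.card (PresentedGroup S.rels))
    (hle : Nat.card (PresentedGroup S.rels) ≤ B) (hr : B ≤ Nat.card D.φ.range) :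
    Function.Injective D.φ ∧ Nat.card (PresentedGroup S.rels) = B := by
  classical
  have hfin : Finite (PresentedGroup S.rels) := Nat.finite_of_card_ne_zero hpos.ne'
  have h2 : Nat.card D.φ.range ≤ Nat.card (PresentedGroup S.rels) :=
    Nat.card_le_card_of_surjective _ D.φ.rangeRestrict_surjective
  have h3 : Nat.card D.φ.range = Nat.card (PresentedGroup S.rels) := by omega
  refine ⟨?_, by omega⟩
  have h4 : Function.Bijective D.φ.rangeRestrict := by
    refine ⟨?_, D.φ.rangeRestrict_surjective⟩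
    exact ((Nat.bijective_iff_surjective_and_card _).2 ⟨D.φ.rangeRestrict_surjective, h3.symm⟩).1
  intro x y hxy
  apply h4.1
  exact Subtype.ext hxy

end Sys

end Cfsg.Agent.Lib.TC
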