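/-
Simplicity of a group from a faithful transitive action whose suborbit sizes leave little room for normal subgroups,
and the collapse of the quotient by a normal subgroup.
-/
import Cfsg.Agent.Lib.TC.Lower

set_option autoImplicit false

namespace Cfsg.Agent.Lib.TC

open scoped Pointwise

/-- The intervals follow each other. -/
def consec : ℕ → List (ℕ × ℕ) → ℕ → Bool
  | a, [], b => a == b
  | a, iv :: l, b => (iv.1 == a) && decide (iv.1 < iv.2) && consec iv.2 l b

theorem consec_le : ∀ (l : List (ℕ × ℕ)) (a b : ℕ), consec a l b = true → a ≤ b := by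
  intro l
  induction l with
  | nil =>
    intro a b h
    have : a = b := by simpa [consec] using h
    omega
  | cons x l ih =>
    intro a b h
    simp only [consec, Bool.and_eq_true, beq_iff_eq, decide_eq_true_eq] at h
    obtain ⟨⟨h1, h2⟩, h3⟩ := h
    have := ih x.2 b h3
    omega

/-- How a set of numbers made of intervals is counted. -/
theorem card_filter_of_consec (B : Set ℕ) [DecidablePred (· ∈ B)] (p : ℕ × ℕ → Bool)
    (hp1 : ∀ iv, p iv = true → ∀ i, iv.1 ≤ i → i < iv.2 → i ∈ B) :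
    ∀ (ivs : List (ℕ × ℕ)) (a b : ℕ), consec a ivs b = true →
      (∀ iv ∈ ivs, p iv = false → ∀ i, iv.1 ≤ i → i < iv.2 → i ∉ B) →
      ((Finset.Ico a b).filter (· ∈ B)).card = ((ivs.filter p).map fun iv => iv.2 - iv.1).sum := by
  intro ivs
  induction ivs with
  | nil =>
    intro a b h _
    have hab : a = b := by simpa [consec] using h
    subst hab
    simp
  | cons iv l ih =>
    intro a b h hn
    simp only [consec, Bool.and_eq_true, beq_iff_eq, decide_eq_true_eq] at h
    obtain ⟨⟨h1, h2⟩, h3⟩ := h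
    have hle : iv.2 ≤ b := consec_le l iv.2 b h3
    have hU : Finset.Ico a b = Finset.Ico a iv.2 ∪ Finset.Ico iv.2 b :=
      (Finset.Ico_union_Ico_eq_Ico (by omega) hle).symm
    have hD : Disjoint (Finset.Ico a iv.2) (Finset.Ico iv.2 b) := Finset.Ico_disjoint_Ico_consecutive _ _ _
    rw [hU, Finset.filter_union, Finset.card_union_of_disjoint (Finset.disjoint_filter_filter hD),
      ih iv.2 b h3 (fun iv' hiv' => hn iv' (List.mem_cons_of_mem _ hiv'))]
    rw [← h1]
    cases hpv : p iv with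
    | true =>
      rw [List.filter_cons_of_pos hpv, List.map_cons, List.sum_cons]
      congr 1
      rw [Finset.filter_true_of_mem, Nat.card_Ico]
      intro i hi
      rw [Finset.mem_Ico] at hi
      exact hp1 iv hpv i hi.1 hi.2
    | false =>
      rw [List.filter_cons_of_neg (by simp [hpv])]
      rw [Finset.filter_false_of_mem, Finset.card_empty, Nat.zero_add]
      intro i hi
      rw [Finset.mem_Ico] at hi
      exact hn iv (by simp) hpv i hi.1 hi.2

namespace CosetRep

variable {G : Type*} [Group G] {H : Subgroup G} {n : ℕ} (R : CosetRep H n)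

/-- The points reached by a normal subgroup. -/
def reach (N : Subgroup G) : Set ℕ := {i | ∃ a ∈ N, (R.φ a R.base).val = i}

theorem reach_inv (N : Subgroup G) [N.Normal] {h : G} (hh : h ∈ H) {i : Fin n}
    (hi : i.val ∈ R.reach N) : (R.φ h i).val ∈ R.reach N := by
  obtain ⟨a, ha, hai⟩ := hi
  have hi' : R.φ a R.base = i := Fin.ext hai
  refine ⟨h * a * h⁻¹, Subgroup.Normal.conj_mem inferInstance a ha h, ?_⟩
  have h1 : R.φ h⁻¹ R.base = R.base := (R.mem_iff _).1 (inv_mem hh)
  rw [map_mul, map_mul, Equiv.Perm.mul_apply, Equiv.Perm.mul_apply, h1, hi']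

theorem card_reach (N : Subgroup G) : (R.reach N).ncard = H.relIndex N := by
  classical
  let _ : MulAction N (Fin n) := MulAction.compHom (Fin n) (R.φ.comp N.subtype)
  have h2 : MulAction.stabilizer N R.base = H.subgroupOf N := by
    ext a
    rw [Subgroup.mem_subgroupOf, R.mem_iff, MulAction.mem_stabilizer_iff]
    rfl
  have h1 := MulAction.index_stabilizer N R.base
  rw [h2] at h1
  rw [Subgroup.relIndex, h1]
  have : R.reach N = Fin.val '' (MulAction.orbit N R.base) := by
    ext i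
    constructor
    · rintro ⟨a, ha, rfl⟩
      exact ⟨_, ⟨⟨a, ha⟩, rfl⟩, rfl⟩
    · rintro ⟨_, ⟨⟨a, ha⟩, rfl⟩, rfl⟩
      exact ⟨a, ha, rfl⟩
  rw [this, Set.ncard_image_of_injective _ Fin.val_injective]

/-- The relative index of a normal subgroup over a subgroup divides the index of that subgroup. -/
theorem relIndex_normal_dvd (N : Subgroup G) [N.Normal] [Finite G] : H.relIndex N ∣ H.index := by
  -- compare orders in `N ⊔ H`
  have hle : H ≤ N ⊔ H := le_sup_right
  have h1 : Nat.card ↥(N ⊔ H) = Nat.card H * H.relIndex (N ⊔ H) := card_eq_mul_relIndex hle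
  have h2 : Nat.card ↥(N ⊔ H) = Nat.card N * N.relIndex (N ⊔ H) := card_eq_mul_relIndex le_sup_left
  have h3 : N.relIndex (N ⊔ H) = N.relIndex H := Subgroup.relIndex_sup_left H N
  have h4 : Nat.card H = Nat.card ↥(N ⊓ H) * (N ⊓ H).relIndex H := card_eq_mul_relIndex inf_le_right
  have h5 : (N ⊓ H).relIndex H = N.relIndex H := Subgroup.inf_relIndex_right N H
  have h6 : Nat.card N = Nat.card ↥(H ⊓ N) * (H ⊓ N).relIndex N := card_eq_mul_relIndex inf_le_right
  have h7 : (H ⊓ N).relIndex N = H.relIndex N := Subgroup.inf_relIndex_right H N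
  have h8 : ↥(H ⊓ N) = ↥(N ⊓ H) := by rw [inf_comm]
  have h9 : Nat.card ↥(H ⊓ N) = Nat.card ↥(N ⊓ H) := by rw [inf_comm]
  have hpos : 0 < Nat.card H := Nat.card_pos
  have h10 : H.relIndex (N ⊔ H) = H.relIndex N := by
    apply Nat.eq_of_mul_eq_mul_left hpos
    rw [← h1, h2, h3, h6, h7, h9]
    conv_rhs => rw [h4, h5]
    ring
  rw [← h10]
  exact Subgroup.relIndex_dvd_index_of_le hle

/-- A nontrivial normal subgroup is transitive, when the sizes of orbits of the stabiliser say so. -/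
theorem dvd_card_normal [Finite G] (hinj : Function.Injective R.φ) (hn : 0 < n) (hb : R.base = ⟨0, hn⟩)
    (ivs : List (ℕ × ℕ)) (hc : consec 0 ivs n = true) (hfirst : (0, 1) ∈ ivs)
    (htr : ∀ iv ∈ ivs, ∀ i j : Fin n, iv.1 ≤ i.val → i.val < iv.2 → iv.1 ≤ j.val → j.val < iv.2 →
      ∃ h ∈ H, R.φ h i = j)
    (hsum : ∀ C ∈ ivs.sublists, (0, 1) ∈ C → ((C.map fun iv => iv.2 - iv.1).sum ∣ n) →
      (C.map fun iv => iv.2 - iv.1).sum = 1 ∨ (C.map fun iv => iv.2 - iv.1).sum = n)
    (N : Subgroup G) [N.Normal] (hN : N ≠ ⊥) : n ∣ Nat.card N := by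
  classical
  have hindex : H.index = n := R.index_eq
  set B := R.reach N with hB
  -- the intervals inside `B`
  let p : ℕ × ℕ → Bool := fun iv => decide (∃ i, iv.1 ≤ i ∧ i < iv.2 ∧ i ∈ B)
  have hlt : ∀ iv ∈ ivs, iv.2 ≤ n := by
    intro iv hiv
    have key : ∀ (l : List (ℕ × ℕ)) (a : ℕ), consec a l n = true → a ≤ n ∧ ∀ iv ∈ l, iv.2 ≤ n := by
      intro l
      induction l with
      | nil =>
        intro a h
        have : a = n := by simpa [consec] using h
        exact ⟨by omega, by simp⟩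
      | cons x l ih =>
        intro a h
        simp only [consec, Bool.and_eq_true, beq_iff_eq, decide_eq_true_eq] at h
        obtain ⟨⟨h1, h2⟩, h3⟩ := h
        obtain ⟨h4, h5⟩ := ih x.2 h3
        refine ⟨by omega, ?_⟩
        intro y hy
        rcases List.mem_cons.1 hy with rfl | hy
        · exact h4
        · exact h5 y hy
    exact (key ivs 0 hc).2 iv hiv
  have hin : ∀ iv ∈ ivs, p iv = true → ∀ i, iv.1 ≤ i → i < iv.2 → i ∈ B := by
    intro iv hiv hp j hj1 hj2
    obtain ⟨i, hi1, hi2, hi3⟩ := of_decide_eq_true hp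
    have hn1 := hlt iv hiv
    obtain ⟨h, hh, h1⟩ := htr iv hiv ⟨i, by omega⟩ ⟨j, by omega⟩ hi1 hi2 hj1 hj2
    have := R.reach_inv N hh (i := ⟨i, by omega⟩) hi3
    rw [h1] at this
    exact this
  have hout : ∀ iv ∈ ivs, p iv = false → ∀ i, iv.1 ≤ i → i < iv.2 → i ∉ B := by
    intro iv _ hp i h1 h2 h3
    have : p iv = true := decide_eq_true ⟨i, h1, h2, h3⟩
    rw [hp] at this
    exact absurd this (by simp)
  -- restrict to the intervals of the list that matter
  let p' : ℕ × ℕ → Bool := fun iv => decide (iv ∈ ivs) && p iv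
  have hcount := card_filter_of_consec B p' (by
      intro iv hp' i h1 h2
      simp only [p', Bool.and_eq_true, decide_eq_true_eq] at hp'
      exact hin iv hp'.1 hp'.2 i h1 h2) ivs 0 n hc (by
      intro iv hiv hp' i h1 h2
      have : p iv = false := by
        cases hh : p iv with
        | false => rfl
        | true =>
          have : p' iv = true := by simp [p', hiv, hh]
          rw [hp'] at this
          exact absurd this (by simp)
      exact hout iv hiv this i h1 h2)
  have hBsub : ∀ i ∈ B, i < n := by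
    rintro i ⟨a, _, rfl⟩
    exact (R.φ a R.base).2
  have hcard : ((Finset.Ico 0 n).filter (· ∈ B)).card = B.ncard := by
    rw [← Set.ncard_coe_finset]
    congr 1
    ext i
    simp only [Finset.coe_filter, Finset.mem_Ico, Set.mem_ofPred_eq, Nat.zero_le, true_and]
    exact ⟨fun h => h.2, fun h => ⟨hBsub i h, h⟩⟩
  have hB2 : B.ncard = H.relIndex N := R.card_reach N
  have hdvd : H.relIndex N ∣ n := hindex ▸ relIndex_normal_dvd N
  have hb0 : 0 ∈ B := ⟨1, one_mem _, by rw [hb, map_one]; rfl⟩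
  have hC : (ivs.filter p') ∈ ivs.sublists := List.mem_sublists.2 List.filter_sublist
  have hC0 : (0, 1) ∈ ivs.filter p' := by
    rw [List.mem_filter]
    refine ⟨hfirst, ?_⟩
    simp only [p', Bool.and_eq_true, decide_eq_true_eq]
    exact ⟨hfirst, decide_eq_true ⟨0, le_rfl, by norm_num, hb0⟩⟩
  have hsum' : ((ivs.filter p').map fun iv => iv.2 - iv.1).sum = H.relIndex N := by
    rw [← hcount, hcard, hB2]
  rcases hsum _ hC hC0 (by rw [hsum']; exact hdvd) with h | h
  · -- the normal subgroup fixes everything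
    rw [hsum'] at h
    have hNH : N ≤ H := Subgroup.relIndex_eq_one.1 h
    exfalso
    apply hN
    rw [eq_bot_iff]
    intro a ha
    rw [Subgroup.mem_bot]
    apply hinj
    rw [map_one]
    ext i
    obtain ⟨g, hg⟩ := R.transitive i
    have h2 : g⁻¹ * a * g ∈ H := by
      apply hNH
      have := Subgroup.Normal.conj_mem (inferInstance : N.Normal) a ha g⁻¹
      simpa using this
    have h3 := (R.mem_iff _).1 h2
    rw [map_mul, map_mul, map_inv, Equiv.Perm.mul_apply, Equiv.Perm.mul_apply, Equiv.Perm.inv_eq_iff_eq, hg] at h3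
    rw [h3]
    rfl
  · rw [hsum'] at h
    rw [← h]
    exact Subgroup.relIndex_dvd_card H N

end CosetRep

/-- Elements of prime power order lie in a normal subgroup of order divisible by the full power of that prime. -/
theorem mem_normal_of_prime_part {G : Type*} [Group G] [Finite G] (N : Subgroup G) [N.Normal] {p a k : ℕ}
    (hp : p.Prime) (hN : p ^ a ∣ Nat.card N) (hG : ¬ p ^ (a + 1) ∣ Nat.card G) {x : G} (hx : x ^ p ^ k = 1) :
    x ∈ N := by
  classical
  have h1 : Nat.card G = Nat.card (G ⧸ N) * Nat.card N := Subgroup.card_eq_card_quotient_mul_card_subgroup N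
  have h2 : ¬ p ∣ Nat.card (G ⧸ N) := by
    intro h
    apply hG
    rw [h1, pow_succ, mul_comm (Nat.card (G ⧸ N))]
    exact Nat.mul_dvd_mul hN h
  have h3 : orderOf (x : G ⧸ N) ∣ p ^ k := by
    apply orderOf_dvd_of_pow_eq_one
    rw [← QuotientGroup.mk_pow, hx]
    rfl
  have h4 : orderOf (x : G ⧸ N) ∣ Nat.card (G ⧸ N) := orderOf_dvd_natCard _
  have h5 : orderOf (x : G ⧸ N) = 1 := by
    obtain ⟨j, _, hj⟩ := (Nat.dvd_prime_pow hp).1 h3
    rcases j with _ | j
    · simpa using hj
    · exfalso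
      apply h2
      rw [hj, pow_succ] at h4
      exact dvd_of_mul_left_dvd h4
  rw [orderOf_eq_one_iff] at h5
  exact (QuotientGroup.eq_one_iff x).1 h5

namespace Sys

variable {α : Type*} [DecidableEq α] (S : Sys α)

/-- A certificate for the quotient of the group by a normal subgroup containing given words. -/
theorem normal_index_le (N : Subgroup (PresentedGroup S.rels)) [N.Normal] (c : Cert) (words : List (List ℕ))
    (hW : c.W = wordAt words)
    (hep : c.ep = S.ng) (hsz : c.sz = S.ng + 1)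
    (hnW : c.nW = words.length) (hnrel : c.nrel = c.nW)
    (hletters : ∀ w ∈ words, ∀ g ∈ w, g < c.sz)
    (hrel : ∀ w ∈ words, evalWord S.v w ∈ N)
    (hE : ∀ k, c.K ≤ k → c.E k = 0)
    (hcheck : ∀ k, k < c.K → c.chk k = true)
    (n : ℕ) (nm : ℕ → ℕ) (T : ℕ → ℕ → ℕ) (hn : 0 < n) (hnm0 : nm 0 = 0)
    (hfin : ∀ i, i < n → ∀ g, g < S.ng → T i g < n ∧
      wA c.sz c.ep c.b c.m c.E 0 c.fuel [g] (nm i) (nm (T i g)) = true) :
    N.index ≠ 0 ∧ N.index ≤ n := by
  let q := QuotientGroup.mk' N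
  have hq : ∀ w, q (evalWord S.v w) = evalWord (fun g => q (S.v g)) w := fun w => map_evalWord q S.v w
  have h := index_le_of_cert (⊥ : Subgroup (PresentedGroup S.rels ⧸ N)) (fun g => q (S.v g)) c S.code S.inv ?_ ?_
    (by omega) ?_ hE ?_ ?_ (by omega) ?_ hcheck n S.ng nm T hn hnm0 (by omega) S.hcode
    (fun x => (S.hinvc x).1) hfin
  · rw [Subgroup.index_bot] at h
    exact h
  · -- generation
    have h1 : (Set.range fun x => q (S.v (S.code x))) = q '' (Set.range fun x => S.v (S.code x)) := by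
      ext y
      simp [Set.mem_image]
    rw [h1, ← MonoidHom.map_closure, S.closure_eq_top, ← MonoidHom.range_eq_map]
    exact MonoidHom.range_eq_top.2 (QuotientGroup.mk'_surjective N)
  · intro x
    rw [S.v_inv_code', map_inv]
  · rw [hep, S.v_ge le_rfl, map_one]
  · intro j hj h hh
    rw [hW, wordAt_eq_getD] at hh
    rw [hnW] at hj
    rw [List.getD_eq_getElem _ _ hj] at hh
    exact hletters _ (List.getElem_mem hj) h hh
  · intro j hj
    rw [hW, wordAt_eq_getD, ← hq]
    have hj' : j < words.length := by omega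
    rw [List.getD_eq_getElem _ _ hj']
    exact (QuotientGroup.eq_one_iff _).2 (hrel _ (List.getElem_mem hj'))
  · intro j hj hj'
    omega

theorem eval_mem_of_rel {w : List ℕ} (N : Subgroup (PresentedGroup S.rels))
    (h : isPseudo S.ng S.inv w = true ∨ ∃ r ∈ S.rels, encW S.code S.inv r = w) : evalWord S.v w ∈ N := by
  rcases h with h | ⟨r, hr, rfl⟩
  · rw [S.evalWord_isPseudo h]
    exact one_mem _
  · rw [S.evalWord_encW, PresentedGroup.one_of_mem hr]
    exact one_mem _

end Sys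

/-- The base point of the representation on cosets. -/
theorem Sys.cosetRep_base {α : Type*} [DecidableEq α] {S : Sys α} {subs : Set (FreeGroup α)}
    (D : S.TableData)
    (h0 : ∀ s ∈ subs, walk D.T (encW S.code S.inv s) 0 = 0)
    (htrans : ∀ i : Fin D.n, ∃ g, D.φ g ⟨0, D.hn⟩ = i)
    (hupper : (Sys.subOf S subs).index ≠ 0 ∧ (Sys.subOf S subs).index ≤ D.n) :
    (Sys.cosetRep D h0 htrans hupper).base = ⟨0, D.hn⟩ := by
  have hfix := Sys.subOf_fix D D.hn h0
  show D.φ (Quotient.out (((1 : PresentedGroup S.rels) : PresentedGroup S.rels ⧸ Sys.subOf S subs))) _ = _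
  apply hfix
  have h1 := QuotientGroup.out_eq' (((1 : PresentedGroup S.rels) : PresentedGroup S.rels ⧸ Sys.subOf S subs))
  have h2 := QuotientGroup.eq.1 h1
  simpa using h2

namespace Sys

namespace Checked

variable {α : Type*} [DecidableEq α] {S : Sys α} {subs : Set (FreeGroup α)} {c : Cert} (C : S.Checked subs c)

/-- The subgroup is transitive on the intervals. -/
theorem iv_from_lo (iv : ℕ × ℕ) (hiv : iv ∈ C.ivs) (h2 : iv.2 ≤ C.n) (h1 : iv.1 < iv.2) :
    ∀ (i : ℕ) (hin : i < C.n), iv.1 ≤ i → i < iv.2 →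
      ∃ h ∈ subOf S subs, C.tableData.φ h ⟨iv.1, lt_of_lt_of_le h1 h2⟩ = ⟨i, hin⟩ := by
  intro i hin h3 h4
  induction i using Nat.strong_induction_on with
  | _ i ih =>
    by_cases h0 : i = iv.1
    · subst h0
      exact ⟨1, one_mem _, rfl⟩
    · have hi0 : i ≠ 0 := by omega
      obtain ⟨h5, h6, h7, h8⟩ := ptTree_spec (C.parts i hin).2.2.2.1 hi0
      rcases h8 iv hiv ⟨h3, h4⟩ with h9 | ⟨h9, h10⟩
      · exact absurd h9 h0
      · obtain ⟨hp, w, _, hw, hmove⟩ := C.tree_step ⟨i, hin⟩ hi0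
        obtain ⟨g, hg, hgm⟩ := ih _ h5 hp h10 (by omega)
        have hmem : evalWord S.v w ∈ subOf S subs :=
          eval_mem_subOf (C.A.h2 w (by rw [hw]; exact C.hWLs _ h9))
        refine ⟨(evalWord S.v w)⁻¹ * g, mul_mem (inv_mem hmem) hg, ?_⟩
        rw [map_mul, Equiv.Perm.mul_apply, hgm, hmove]

theorem iv_trans (iv : ℕ × ℕ) (hiv : iv ∈ C.ivs) (h2 : iv.2 ≤ C.n) (i j : Fin C.n)
    (h3 : iv.1 ≤ i.val) (h4 : i.val < iv.2) (h5 : iv.1 ≤ j.val) (h6 : j.val < iv.2) :
    ∃ h ∈ subOf S subs, C.rep.φ h i = j := by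
  have h1 : iv.1 < iv.2 := by omega
  obtain ⟨g1, hg1, e1⟩ := C.iv_from_lo iv hiv h2 h1 i i.2 h3 h4
  obtain ⟨g2, hg2, e2⟩ := C.iv_from_lo iv hiv h2 h1 j j.2 h5 h6
  refine ⟨g2 * g1⁻¹, mul_mem hg2 (inv_mem hg1), ?_⟩
  show C.tableData.φ (g2 * g1⁻¹) i = j
  have e1' : C.tableData.φ g1⁻¹ i = ⟨iv.1, lt_of_lt_of_le h1 h2⟩ := by
    rw [map_inv, Equiv.Perm.inv_eq_iff_eq, e1]
  rw [map_mul, Equiv.Perm.mul_apply, e1', e2]

theorem rep_base : C.rep.base = ⟨0, C.hn⟩ :=
  Sys.cosetRep_base C.tableData C.fix0 C.trans C.upper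

theorem iv_invar (iv : ℕ × ℕ) (hiv : iv ∈ C.ivs) :
    ∀ h ∈ subOf S subs, ∀ i : Fin C.n, (iv.1 ≤ i.val ∧ i.val < iv.2) →
      (iv.1 ≤ (C.rep.φ h i).val ∧ (C.rep.φ h i).val < iv.2) := by
  rw [rep_φ]
  refine subOf_preserves C.tableData (fun i => iv.1 ≤ i.val ∧ i.val < iv.2) ?_
  intro s hs i hi
  have h3 := ptOrb_spec (C.parts i i.2).2.2.2.2 iv hiv hi _ (C.A.h1 s hs)
  have h4 := C.tableData.walk_eq (S.encW_letters s) i
  rw [S.evalWord_encW] at h4
  change iv.1 ≤ ((C.tableData.φ (PresentedGroup.mk S.rels s))⁻¹ i).val ∧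
    ((C.tableData.φ (PresentedGroup.mk S.rels s))⁻¹ i).val < iv.2
  rw [h4]
  exact h3

/-- Orbits of disjoint intervals differ. -/
theorem orbit_ne (iv iv' : ℕ × ℕ) (hiv : iv ∈ C.ivs) (h1 : iv.1 < iv.2) (h2 : iv.2 ≤ C.n)
    (h1' : iv'.1 < iv'.2) (h2' : iv'.2 ≤ C.n) (hd : iv.2 ≤ iv'.1) :
    MulAction.orbit (subOf S subs) (C.rep.e.symm ⟨iv.1, by omega⟩) ≠
      MulAction.orbit (subOf S subs) (C.rep.e.symm ⟨iv'.1, by omega⟩) := by
  intro h
  have h3 : C.rep.e.symm ⟨iv'.1, by omega⟩ ∈ MulAction.orbit (subOf S subs) (C.rep.e.symm ⟨iv.1, by omega⟩) := by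
    rw [h]
    exact MulAction.mem_orbit_self _
  obtain ⟨⟨g, hg⟩, h4⟩ := h3
  have h5 : C.rep.φ g ⟨iv.1, by omega⟩ = ⟨iv'.1, by omega⟩ := by
    have h6 := C.rep.e_smul g (C.rep.e.symm ⟨iv.1, by omega⟩)
    rw [Equiv.apply_symm_apply] at h6
    rw [← h6]
    have h7 : g • C.rep.e.symm ⟨iv.1, by omega⟩ = C.rep.e.symm ⟨iv'.1, by omega⟩ := h4
    rw [h7, Equiv.apply_symm_apply]
  have h8 := C.iv_invar iv hiv g hg ⟨iv.1, by omega⟩ ⟨le_rfl, h1⟩
  rw [h5] at h8
  have h9 : iv'.1 < iv.2 := h8.2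
  omega

/-- From an upper bound for the order and a lower bound for the order of the image of the representation. -/
theorem faithful (hpos : 0 < Nat.card (PresentedGroup S.rels)) {b : ℕ}
    (hle : Nat.card (PresentedGroup S.rels) ≤ b * C.n) (Ws : List (List ℕ))
    (hlet : ∀ w ∈ Ws, ∀ g ∈ w, g < S.ng) (hfix : relsOk C.T Ws 0 = true)
    (hb : b ≤ Nat.card (C.tableData.tbl.gp Ws)) :
    Function.Injective C.tableData.φ ∧ Nat.card (PresentedGroup S.rels) = b * C.n := by
  have h1 := C.tableData.card_range_ge C.trans Ws hlet (fun w hw => relsOk_spec hfix w hw) b hb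
  rw [Nat.mul_comm] at h1
  exact C.tableData.faithful hpos hle h1

/-- The simplicity of the group. -/
theorem isSimple [Finite (PresentedGroup S.rels)] (hinj : Function.Injective C.tableData.φ) {B : ℕ}
    (hcard : Nat.card (PresentedGroup S.rels) = B) (hB : 1 < B)
    (hc : consec 0 C.ivs C.n = true) (hfirst : (0, 1) ∈ C.ivs)
    (hsum : ∀ D ∈ C.ivs.sublists, (0, 1) ∈ D → ((D.map fun iv => iv.2 - iv.1).sum ∣ C.n) →
      (D.map fun iv => iv.2 - iv.1).sum = 1 ∨ (D.map fun iv => iv.2 - iv.1).sum = C.n)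
    {p a k : ℕ} (hp : p.Prime) (hpn : p ^ a ∣ C.n) (hpB : ¬ p ^ (a + 1) ∣ B)
    (x : PresentedGroup S.rels) (hx : x ^ p ^ k = 1)
    (hcoll : ∀ N : Subgroup (PresentedGroup S.rels), N.Normal → x ∈ N → N = ⊤) :
    IsSimpleGroup (PresentedGroup S.rels) := by
  have hlt : ∀ iv ∈ C.ivs, iv.2 ≤ C.n := by
    have key : ∀ (l : List (ℕ × ℕ)) (a : ℕ), consec a l C.n = true → ∀ iv ∈ l, iv.2 ≤ C.n := by
      intro l
      induction l with
      | nil => intro a _ iv hiv; simp at hiv
      | cons y l ih =>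
        intro a h
        simp only [consec, Bool.and_eq_true, beq_iff_eq, decide_eq_true_eq] at h
        obtain ⟨⟨h1, h2⟩, h3⟩ := h
        intro z hz
        rcases List.mem_cons.1 hz with rfl | hz
        · exact consec_le l _ _ h3
        · exact ih y.2 h3 z hz
    exact key C.ivs 0 hc
  have hnontriv : Nontrivial (PresentedGroup S.rels) := by
    apply Finite.one_lt_card_iff_nontrivial.1
    rw [hcard]
    exact hB
  refine { eq_bot_or_eq_top_of_normal := ?_ }
  intro N hN
  by_cases hbot : N = ⊥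
  · exact Or.inl hbot
  · right
    have hdvd : C.n ∣ Nat.card N := C.rep.dvd_card_normal hinj C.hn C.rep_base C.ivs hc hfirst
      (fun iv hiv i j h3 h4 h5 h6 => C.iv_trans iv hiv (hlt iv hiv) i j h3 h4 h5 h6) hsum N hbot
    exact hcoll N hN (mem_normal_of_prime_part N hp (hpn.trans hdvd) (by rw [hcard]; exact hpB) hx)

end Checked

/-- The order of an element from its walk on points. -/
theorem TableData.pow_eq_one {α : Type*} [DecidableEq α] {S : Sys α} (D : S.TableData) (hinj : Function.Injective D.φ) {w : List ℕ}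
    (hw : ∀ g ∈ w, g < S.ng) (m : ℕ) (h : ∀ i, i < D.n → (walk D.T w)^[m] i = i) :
    (evalWord S.v w) ^ m = 1 := by
  apply hinj
  rw [map_pow, map_one, ← inv_eq_one, ← inv_pow]
  ext i
  have key : ∀ (r : ℕ) (j : Fin D.n), (((D.φ (evalWord S.v w))⁻¹ ^ r) j).val = (walk D.T w)^[r] j.val := by
    intro r
    induction r with
    | zero => intro j; rfl
    | succ r ih =>
      intro j
      rw [pow_succ, Equiv.Perm.mul_apply, ih, Function.iterate_succ_apply, D.walk_eq hw]
  rw [key, h i i.2]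
  rfl

/-- The order of an element, with the values of a word given by a table. -/
theorem TableData.pow_eq_one_U {α : Type*} [DecidableEq α] {S : Sys α} (D : S.TableData)
    (hinj : Function.Injective D.φ) {w : List ℕ} (hw : ∀ g ∈ w, g < S.ng) (m : ℕ) (U : ℕ → ℕ)
    (hU : ∀ i, i < D.n → walk D.T w i = U i) (hV : ∀ i, i < D.n → iterN U m i = i) :
    (evalWord S.v w) ^ m = 1 := by
  refine D.pow_eq_one hinj hw m ?_
  intro i hi
  have key : ∀ (r j : ℕ), j < D.n → (walk D.T w)^[r] j = U^[r] j := by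
    intro r
    induction r with
    | zero => intro j _; rfl
    | succ r ih =>
      intro j hj
      have h1 : walk D.T w j < D.n := by
        have := D.walk_eq hw ⟨j, hj⟩
        rw [← this]
        exact Fin.is_lt _
      rw [Function.iterate_succ_apply, Function.iterate_succ_apply, ih _ h1, hU j hj]
  rw [key m i hi, ← iterN_eq]
  exact hV i hi

/-- The check for an order with a table of values. -/
noncomputable def ptPow (T : ℕ → ℕ → ℕ) (w : List ℕ) (U : ℕ → ℕ) (m i : ℕ) : Bool :=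
  bif' (Nat.beq (walk T w i) (U i)) (Nat.beq (iterN U m i) i) false

theorem ptPow_spec {T : ℕ → ℕ → ℕ} {w : List ℕ} {U : ℕ → ℕ} {m i : ℕ} (h : ptPow T w U m i = true) :
    walk T w i = U i ∧ iterN U m i = i := by
  obtain ⟨h1, h2⟩ := bif'_spec h rfl
  exact ⟨Nat.eq_of_beq_eq_true h1, Nat.eq_of_beq_eq_true h2⟩

end Sys

end Cfsg.Agent.Lib.TC
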